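import Cfsg.Agent.Blocks.PrimeGram.BlockEquation
import Cfsg.Agent.Blocks.PrimeGram.SieveTools
import Cfsg.Agent.Blocks.PrimeGram.SylowOrbits
import Cfsg.Agent.Chars.GaloisSum.Basic
import Cfsg.Agent.S0189
import Cfsg.Agent.Eq.Def_DegreeGraph

/-!
The principal block for the prime thirteen of a simple group of order 5616: degrees one, twelve,
twenty-seven and four times sixteen.
-/

set_option autoImplicit false

namespace CfsgLib.DegreeOrder.L33

open Cfsg CfsgLib.Chars CfsgLib.PrimeGram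
open scoped ComplexConjugate Classical

universe u

variable {G : Type u} [Group G] [Finite G]

theorem not_comm [IsSimpleGroup G] (h : Nat.card G = 5616) : ¬ IsMulCommutative G :=
  CfsgLib.SmallSimple.not_comm_of_card_not_prime (by rw [h]; norm_num)

/-- The Sylow subgroups of order thirteen: self-centralising, normaliser of order 39. -/
theorem sylow_thirteen [IsSimpleGroup G] (h : Nat.card G = 5616) [Fact (Nat.Prime 13)]
    (P : Sylow 13 G) :
    Nat.card (P : Subgroup G) = 13 ∧
      Nat.card (Subgroup.normalizer ((P : Subgroup G) : Set G)) = 39 ∧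
      (Subgroup.centralizer ((P : Subgroup G) : Set G)).relIndex
        (Subgroup.normalizer ((P : Subgroup G) : Set G)) = 3 ∧
      Nat.card (Subgroup.centralizer ((P : Subgroup G) : Set G)) = 13 := by
  have hG := not_comm h
  obtain ⟨hn, hall⟩ := card_sylow_mem_of_constraints hG 13 432 (by rw [h]) (by norm_num)
  obtain ⟨hP, hN⟩ := hall P
  rw [show (Nat.divisors 432).filter (fun n => n % 13 = 1 ∧ n ≠ 1) = {27, 144} from by
    decide +kernel] at hn
  simp only [Finset.mem_insert, Finset.mem_singleton] at hn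
  rcases hn with hn | hn <;> rw [hn] at hN
  · exfalso
    obtain ⟨e, c, -, hc, hec, he1, hed⟩ := exists_index_split hG P hP (k := 16) (by omega)
    have hd : c ∣ 6 := dvd_factorial_orbits hG P hP hc (r := 2) hn
    have hc6 : c ≤ 6 := Nat.le_of_dvd (by norm_num) hd
    have hle : e ≤ 12 := Nat.le_of_dvd (by norm_num) hed
    interval_cases c <;> interval_cases e <;> omega
  · have hN' : Nat.card (Subgroup.normalizer ((P : Subgroup G) : Set G)) = 13 * 3 := by omega
    obtain ⟨e, c, he, hc, hec, he1, hed⟩ := exists_index_split hG P hP hN'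
    have he3 : e = 3 := by
      have : e ∣ 3 := ⟨c, hec.symm⟩
      rcases (Nat.dvd_prime Nat.prime_three).mp this with e1 | e1
      · exact absurd e1 he1
      · exact e1
    subst he3
    exact ⟨hP, hN', he, by rw [hc, show c = 1 by omega]⟩

/-- The members of the block. -/
noncomputable def blockSet (α β : IrrCharacter G) (Y : Finset (IrrCharacter G)) :
    Finset (IrrCharacter G) :=
  insert (oneChar G) (insert α (insert β Y))

theorem mem_blockSet {α β χ : IrrCharacter G} {Y : Finset (IrrCharacter G)} :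
    χ ∈ blockSet α β Y ↔ χ = oneChar G ∨ χ = α ∨ χ = β ∨ χ ∈ Y := by
  simp [blockSet]

/-- The principal block: the two non-principal members `α`, `β` outside the exceptional family
`Y`, their degrees and their values at the element `x` of order thirteen. -/
structure Block (G : Type u) [Group G] [Finite G] (x : G) (α β : IrrCharacter G)
    (Y : Finset (IrrCharacter G)) : Prop where
  order : orderOf x = 13
  cent : Nat.card (Subgroup.centralizer ({x} : Set G)) = 13
  no_inv : ∀ g : G, g * x * g⁻¹ ≠ x⁻¹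
  degA : charDegree (α : G → ℂ) = 12
  degB : charDegree (β : G → ℂ) = 27
  degY : ∀ θ ∈ Y, charDegree (θ : G → ℂ) = 16
  cardY : Y.card = 4
  mem : oneChar G ∉ Y ∧ α ∉ Y ∧ β ∉ Y
  valA : (α : G → ℂ) x = -1
  valB : (β : G → ℂ) x = 1
  valY : ∑ θ ∈ Y, (θ : G → ℂ) x = -1
  rel : ∀ θ ∈ Y, ∀ g : G, ¬ 13 ∣ orderOf g →
    (θ : G → ℂ) g = 1 - (α : G → ℂ) g + (β : G → ℂ) g
  vanish : ∀ χ : IrrCharacter G, χ ∉ blockSet α β Y →
    (χ : G → ℂ) x = 0

variable {x : G} {α β : IrrCharacter G} {Y : Finset (IrrCharacter G)}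

theorem Block.ne (B : Block G x α β Y) :
    α ≠ oneChar G ∧ β ≠ oneChar G ∧ α ≠ β := by
  have h1 : charDegree (oneChar G : G → ℂ) = 1 := charDegree_linChar 1
  refine ⟨fun e => ?_, fun e => ?_, fun e => ?_⟩
  · have := B.degA; rw [e, h1] at this; omega
  · have := B.degB; rw [e, h1] at this; omega
  · have := B.degA; rw [e, B.degB] at this; omega

/-- Sums over the block. -/
theorem Block.sum (B : Block G x α β Y) {M : Type*} [AddCommMonoid M]
    (F : IrrCharacter G → M) :
    ∑ χ ∈ blockSet α β Y, F χ =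
      F (oneChar G) + (F α + (F β + ∑ θ ∈ Y, F θ)) := by
  obtain ⟨h1, h2, h3⟩ := B.ne
  obtain ⟨m1, m2, m3⟩ := B.mem
  rw [blockSet, Finset.sum_insert (by simp [h1.symm, h2.symm, m1]), Finset.sum_insert (by simp [h3, m2]),
    Finset.sum_insert m3]

theorem exists_block [IsSimpleGroup G] (h : Nat.card G = 5616) :
    ∃ x α β Y, Block G x α β Y := by
  haveI : Fact (Nat.Prime 13) := ⟨by norm_num⟩
  haveI := Fintype.ofFinite G
  have hG := not_comm h
  obtain ⟨P⟩ := (inferInstance : Nonempty (Sylow 13 G))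
  obtain ⟨hP, hN, he, hC⟩ := sylow_thirteen h P
  obtain ⟨-, x, X, Y, εX, ε, hz, D⟩ := exists_blockData hG P hP 3 (by norm_num) he
  obtain ⟨-, hCx⟩ := setup_bot D.order hz hC
  have hone : charDegree (oneChar G : G → ℂ) = 1 := charDegree_linChar 1
  have hlt : ∀ χ : IrrCharacter G, charDegree (χ : G → ℂ) < 75 := fun χ => by
    have h1 := charDegree_sq_le χ
    rw [h] at h1
    nlinarith
  have keyX : ∀ A ∈ Finset.range 75, A ∣ 5616 → 2 ≤ A → ∀ i ∈ ([1, -1] : List ℤ),
      (A : ℤ) % 13 = i % 13 → (A = 12 ∧ i = -1) ∨ (A = 27 ∧ i = 1) := by decide +kernel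
  have keyY : ∀ B ∈ Finset.range 75, B ∣ 5616 → ∀ i ∈ ([1, -1] : List ℤ),
      (B : ℤ) % 13 = (i * 3) % 13 → i * (B : ℤ) ≠ -23 ∧ i * (B : ℤ) ≠ 55 := by decide +kernel
  have hX : ∀ χ ∈ X.erase (oneChar G),
      (charDegree (χ : G → ℂ) = 12 ∧ εX χ = -1) ∨ (charDegree (χ : G → ℂ) = 27 ∧ εX χ = 1) := by
    intro χ hχ
    rw [Finset.mem_erase] at hχ
    refine keyX _ (Finset.mem_range.mpr (hlt χ)) (h ▸ charDegree_dvd_card χ) ?_ _
      (by simpa using D.signX χ hχ.2) (by simpa using D.congrX χ hχ.2)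
    have := charDegree_pos χ
    by_contra h1
    exact hχ.1 (linear_eq_one hG χ (by omega))
  obtain ⟨χ₁, χ₂, h12, hXe⟩ := Finset.card_eq_two.mp (show (X.erase (oneChar G)).card = 2 by
    rw [Finset.card_erase_of_mem D.oneX, D.cardX])
  obtain ⟨θ₀, hθ₀⟩ : Y.Nonempty := Finset.card_pos.mp (by rw [D.cardY]; norm_num)
  have hsum : ∀ {M : Type} [AddCommMonoid M] (F : IrrCharacter G → M),
      ∑ χ ∈ X, F χ = F (oneChar G) + (F χ₁ + F χ₂) := by
    intro M _ F
    rw [← Finset.add_sum_erase _ _ D.oneX, hXe, Finset.sum_pair h12]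
  have hYk := keyY _ (Finset.mem_range.mpr (hlt θ₀)) (h ▸ charDegree_dvd_card θ₀) ε
    (by simpa using D.sign) (by simpa using D.congrY θ₀ hθ₀)
  have hdeq := D.degree_eq hθ₀
  rw [hsum, D.signOne, hone] at hdeq
  have h1 := hX χ₁ (by rw [hXe]; simp)
  have h2 := hX χ₂ (by rw [hXe]; simp)
  obtain ⟨α, β, hαβ, hXe', hα, hεα, hβ, hεβ⟩ : ∃ α β, α ≠ β ∧ X.erase (oneChar G) = {α, β} ∧
      charDegree (α : G → ℂ) = 12 ∧ εX α = -1 ∧ charDegree (β : G → ℂ) = 27 ∧ εX β = 1 := by
    rcases h1 with ⟨a1, e1⟩ | ⟨a1, e1⟩ <;> rcases h2 with ⟨a2, e2⟩ | ⟨a2, e2⟩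
    · rw [a1, a2, e1, e2] at hdeq
      exact absurd hdeq (by simpa using hYk.1)
    · exact ⟨χ₁, χ₂, h12, hXe, a1, e1, a2, e2⟩
    · exact ⟨χ₂, χ₁, h12.symm, by rw [hXe, Finset.pair_comm], a2, e2, a1, e1⟩
    · rw [a1, a2, e1, e2] at hdeq
      exact absurd hdeq (by simpa using hYk.2)
  have hsum' : ∀ {M : Type} [AddCommMonoid M] (F : IrrCharacter G → M),
      ∑ χ ∈ X, F χ = F (oneChar G) + (F α + F β) := by
    intro M _ F
    rw [← Finset.add_sum_erase _ _ D.oneX, hXe', Finset.sum_pair hαβ]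
  have hdeg : ∀ θ ∈ Y, ε * (charDegree (θ : G → ℂ) : ℤ) = 16 := by
    intro θ hθ
    have h3 := D.degree_eq hθ
    rw [hsum', D.signOne, hone, hα, hεα, hβ, hεβ] at h3
    simpa using h3
  have hε : ε = 1 := by
    have := hdeg θ₀ hθ₀
    rcases D.sign with e | e
    · exact e
    · rw [e] at this; omega
  have hdeg16 : ∀ θ ∈ Y, charDegree (θ : G → ℂ) = 16 := by
    intro θ hθ
    have := hdeg θ hθ
    rw [hε, one_mul] at this
    exact_mod_cast this
  have hval : ∀ χ ∈ X, (χ : G → ℂ) x = (εX χ : ℂ) := by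
    intro χ hχ
    have h3 := D.valueX χ hχ 1 one_ne_zero 1 (Commute.one_left x) (by simp)
    rwa [pw_one, mul_one] at h3
  have hmem : ∀ χ, χ ∈ X ↔ χ = oneChar G ∨ χ = α ∨ χ = β := by
    intro χ
    rw [← Finset.insert_erase D.oneX, hXe']
    simp
  have hmemB : ∀ χ, χ ∈ blockSet α β Y ↔ χ ∈ X ∪ Y := by
    intro χ
    rw [mem_blockSet, Finset.mem_union, hmem, or_assoc, or_assoc]
  have hvan : ∀ χ : IrrCharacter G, χ ∉ X ∪ Y → (χ : G → ℂ) x = 0 := fun χ hχ => by
    rw [Finset.mem_union, not_or] at hχ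
    exact D.vanish hCx χ hχ.1 hχ.2
  have hαX : α ∈ X := (hmem α).mpr (by simp)
  have hβX : β ∈ X := (hmem β).mpr (by simp)
  have hx1 : x ≠ 1 := fun e => by
    have := D.order; rw [e, orderOf_one] at this; norm_num at this
  refine ⟨x, α, β, Y, D.order, hCx, ?_, hα, hβ, hdeg16, by rw [D.cardY],
    ⟨Finset.disjoint_left.mp D.disj D.oneX, Finset.disjoint_left.mp D.disj hαX,
      Finset.disjoint_left.mp D.disj hβX⟩,
    by rw [hval α hαX, hεα]; simp, by rw [hval β hβX, hεβ]; simp, ?_, ?_,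
    fun χ hχ => hvan χ (fun e => hχ ((hmemB χ).mpr e))⟩
  · intro g hg
    have hgN : g ∈ Subgroup.normalizer ((P : Subgroup G) : Set G) := by
      rw [← hz]
      refine (mem_nset_iff_mem_normalizer D.order).mp (mem_nset.mpr ⟨-1, ?_⟩)
      rw [hg]
      refine (eq_inv_of_mul_eq_one_left ?_).symm
      conv_lhs => arg 2; rw [← pw_one (p := 13) (x := x)]
      rw [← pw_add D.order, neg_add_cancel, pw_zero]
    have h39 : g ^ 39 = 1 := by
      rw [← orderOf_dvd_iff_pow_eq_one, ← hN]
      exact Subgroup.orderOf_dvd_natCard _ hgN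
    -- `g` has odd order and `g * g` centralises `x`
    have hc2 : Commute (g * g) x := by
      have : g * g * x * (g * g)⁻¹ = x := by
        calc g * g * x * (g * g)⁻¹ = g * (g * x * g⁻¹) * g⁻¹ := by group
          _ = g * x⁻¹ * g⁻¹ := by rw [hg]
          _ = (g * x * g⁻¹)⁻¹ := by group
          _ = x := by rw [hg, inv_inv]
      exact mul_inv_eq_iff_eq_mul.mp this
    have hc : Commute g x := by
      have e : g = (g * g) ^ 20 := by
        rw [← pow_two, ← pow_mul, show 2 * 20 = 39 + 1 by norm_num, pow_succ, h39, one_mul]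
      rw [e]
      exact hc2.pow_left 20
    rw [hc.eq, mul_inv_cancel_right] at hg
    have h2 : x ^ 2 = 1 := by rw [pow_two]; nth_rewrite 1 [hg]; exact inv_mul_cancel x
    have := orderOf_dvd_iff_pow_eq_one.mpr h2
    rw [D.order] at this
    norm_num at this
  · have h3 := sum_irr_map_one_mul x
    rw [if_neg hx1, ← Finset.sum_subset (Finset.subset_univ (X ∪ Y))
      (fun χ _ hχ => by rw [hvan χ hχ, mul_zero]), Finset.sum_union D.disj, hsum', oneChar_apply,
      oneChar_apply, ← coe_charDegree α, hα, ← coe_charDegree β, hβ, hval α hαX, hεα, hval β hβX,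
      hεβ, Finset.sum_congr rfl fun (θ : IrrCharacter G) hθ =>
        show (θ : G → ℂ) 1 * (θ : G → ℂ) x = (16 : ℂ) * (θ : G → ℂ) x by
          rw [← coe_charDegree θ, hdeg16 θ hθ]; norm_num, ← Finset.mul_sum] at h3
    push_cast at h3
    linear_combination h3 / 16
  · intro θ hθ g hg
    have h3 := D.rel θ hθ g hg
    rw [hε, hsum', D.signOne, hεα, hεβ, oneChar_apply] at h3
    push_cast at h3
    linear_combination h3

/-- The degree of a character outside the block is divisible by thirteen. -/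
theorem Block.dvd_degree (h : Nat.card G = 5616) (B : Block G x α β Y) {χ : IrrCharacter G}
    (hχ : χ ∉ blockSet α β Y) : 13 ∣ charDegree (χ : G → ℂ) := by
  haveI : Fact (Nat.Prime 13) := ⟨by norm_num⟩
  have hP13 : Nat.card (Subgroup.zpowers x) = 13 ^ (Nat.card G).factorization 13 := by
    rw [Nat.card_zpowers, B.order, h, show (5616 : ℕ) = 13 ^ 1 * 432 by norm_num,
      Nat.factorization_mul (by norm_num) (by norm_num), Finsupp.add_apply,
      (Fact.out : Nat.Prime 13).factorization_pow, Finsupp.single_eq_same,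
      Nat.factorization_eq_zero_of_not_dvd (by norm_num)]
    norm_num
  obtain ⟨k, hk⟩ := Cfsg.Agent.S0189.result 13 (Sylow.ofCard (Subgroup.zpowers x) hP13) (χ : G → ℂ)
    (isCharacter_coe χ) (fun g hg hg1 => by
      have hg' : g ∈ Subgroup.zpowers x := hg
      obtain ⟨n, hn⟩ := mem_powers_iff_mem_zpowers.mpr hg'
      subst hn
      have hn13 : n % 13 ≠ 0 := fun e => hg1 (by
        show x ^ n = 1
        rw [← pow_mod_orderOf, B.order, e, pow_zero])
      have hk : Nat.Coprime (66 * (n % 13) + 13) (Nat.card G) := by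
        have key : ∀ i ∈ Finset.range 13, i ≠ 0 → Nat.Coprime (66 * i + 13) 5616 := by
          decide +kernel
        rw [h]
        exact key _ (Finset.mem_range.mpr (Nat.mod_lt _ (by norm_num))) hn13
      have := GaloisSum.char_pow_eq_zero (isCharacter_coe χ) (g := x) hk (B.vanish χ hχ)
      convert this using 2
      show x ^ n = x ^ (66 * (n % 13) + 13)
      rw [pow_eq_pow_iff_modEq, B.order]
      unfold Nat.ModEq
      omega)
  refine ⟨k, ?_⟩
  rw [Sylow.coe_ofCard, Nat.card_zpowers, B.order, ← coe_charDegree] at hk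
  exact_mod_cast hk

/-- Three and thirteen are degree primes. -/
theorem degreePrimes_5616 [IsSimpleGroup G] (h : Nat.card G = 5616) :
    3 ∈ degreePrimes G ∧ 13 ∈ degreePrimes G := by
  obtain ⟨x, α, β, Y, B⟩ := exists_block h
  haveI := Fintype.ofFinite G
  refine ⟨⟨Nat.prime_three, 12, ?_, by norm_num⟩, ⟨by norm_num, ?_⟩⟩
  · exact ⟨α, B.degA⟩
  · obtain ⟨χ, hχ⟩ : ∃ χ, χ ∉ blockSet α β Y := by
      by_contra hc
      push Not at hc
      have h1 := sum_charDegree_sq (G := G)
      rw [← Finset.sum_subset (Finset.subset_univ _) (fun χ _ hn => absurd (hc χ) hn), B.sum,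
        show charDegree (oneChar G : G → ℂ) = 1 from charDegree_linChar 1, B.degA, B.degB,
        Finset.sum_congr rfl fun θ hθ => by rw [B.degY θ hθ], Finset.sum_const, B.cardY, h] at h1
      norm_num at h1
    exact ⟨_, ⟨χ, rfl⟩, B.dvd_degree h hχ⟩

end CfsgLib.DegreeOrder.L33
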