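import Cfsg.Agent.DegreeOrder.L33Block
import Cfsg.Agent.Blocks.PrimeGram.CommutingThree
import Mathlib

/-!
Involutions and elements of order three of a simple group of order 5616, from the values of the
block characters for the prime thirteen.
-/

set_option autoImplicit false

namespace CfsgLib.DegreeOrder.L33

open Cfsg CfsgLib.Chars CfsgLib.PrimeGram
open scoped ComplexConjugate Classical

universe u

variable {G : Type u} [Group G] [Finite G] {x : G} {α β : IrrCharacter G}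
  {Y : Finset (IrrCharacter G)}

/-- A non-trivial element of order prime to thirteen has centraliser of order prime to thirteen. -/
theorem thirteen_not_dvd_cent [IsSimpleGroup G] (h : Nat.card G = 5616) {g : G} (hg1 : g ≠ 1)
    (hg : ¬ 13 ∣ orderOf g) : ¬ 13 ∣ Nat.card (Subgroup.centralizer ({g} : Set G)) := by
  haveI : Fact (Nat.Prime 13) := ⟨by norm_num⟩
  intro hd
  obtain ⟨⟨w, hw⟩, ho⟩ := exists_prime_orderOf_dvd_card' 13 hd
  rw [Subgroup.orderOf_mk] at ho
  have hP13 : Nat.card (Subgroup.zpowers w) = 13 ^ (Nat.card G).factorization 13 := by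
    rw [Nat.card_zpowers, ho, h, show (5616 : ℕ) = 13 ^ 1 * 432 by norm_num,
      Nat.factorization_mul (by norm_num) (by norm_num), Finsupp.add_apply,
      (Fact.out : Nat.Prime 13).factorization_pow, Finsupp.single_eq_same,
      Nat.factorization_eq_zero_of_not_dvd (by norm_num)]
    norm_num
  obtain ⟨-, -, -, hC⟩ := sylow_thirteen h (Sylow.ofCard (Subgroup.zpowers w) hP13)
  have hmem : g ∈ Subgroup.centralizer
      (((Sylow.ofCard (Subgroup.zpowers w) hP13 : Sylow 13 G) : Subgroup G) : Set G) := by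
    rw [Sylow.coe_ofCard, Subgroup.zpowers_eq_closure, Subgroup.centralizer_closure,
      Subgroup.mem_centralizer_singleton_iff]
    exact (Subgroup.mem_centralizer_singleton_iff.mp hw).symm
  have h1 := Subgroup.orderOf_dvd_natCard _ hmem
  rw [hC] at h1
  rcases (Nat.dvd_prime (Fact.out : Nat.Prime 13)).mp h1 with e | e
  · exact hg1 (orderOf_eq_one_iff.mp e)
  · exact hg (e ▸ dvd_rfl)

theorem orderOf_invol {z : G} (hz1 : z ≠ 1) (hz2 : z * z = 1) :
    orderOf z = 2 ∧ ¬ 13 ∣ orderOf z := by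
  have h : orderOf z = 2 := orderOf_eq_prime (by rw [pow_two, hz2]) hz1
  exact ⟨h, by rw [h]; norm_num⟩

/-- Sums against the values at `x⁻¹` only see the block. -/
theorem Block.sum_x [Fintype G] (B : Block G x α β Y) (F : IrrCharacter G → ℂ) (cY : ℂ)
    (hY : ∀ θ ∈ Y, F θ = cY) :
    ∑ χ : IrrCharacter G, (χ : G → ℂ) x⁻¹ * F χ = F (oneChar G) - F α + F β - cY := by
  rw [← Finset.sum_subset (Finset.subset_univ (blockSet α β Y)) (fun χ _ hχ => by
      rw [map_inv_eq_conj (isCharacter_coe χ), B.vanish χ hχ, map_zero, zero_mul]), B.sum,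
    Finset.sum_congr rfl fun θ hθ => by rw [hY θ hθ, map_inv_eq_conj (isCharacter_coe θ)],
    ← Finset.sum_mul, ← map_sum, B.valY, oneChar_apply, map_inv_eq_conj (isCharacter_coe α),
    map_inv_eq_conj (isCharacter_coe β), B.valA, B.valB]
  simp only [map_neg, map_one]
  ring

/-- The values at an involution and the order of its centraliser. -/
theorem Block.invol [IsSimpleGroup G] (h : Nat.card G = 5616) (B : Block G x α β Y) {z : G}
    (hz1 : z ≠ 1) (hz2 : z * z = 1) :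
    (α : G → ℂ) z = 4 ∧ (β : G → ℂ) z = 3 ∧ (∀ θ ∈ Y, (θ : G → ℂ) z = 0) ∧
      Nat.card (Subgroup.centralizer ({z} : Set G)) = 48 := by
  haveI := Fintype.ofFinite G
  have hG := not_comm h
  obtain ⟨hne1, hne2, -⟩ := B.ne
  obtain ⟨-, hz13⟩ := orderOf_invol hz1 hz2
  have hlin := linear_trivial_of_simple hG
  obtain ⟨na, nb, a1, a2, hb⟩ := exists_even_neg hlin hz2 (isCharacter_coe α)
  obtain ⟨nc, nd, b1, b2, hd⟩ := exists_even_neg hlin hz2 (isCharacter_coe β)
  have hA : na + nb = 12 := by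
    rw [← B.degA]; exact (charDegree_eq_of_map_one (by rw [a1]; push_cast; ring)).symm
  have hB : nc + nd = 27 := by
    rw [← B.degB]; exact (charDegree_eq_of_map_one (by rw [b1]; push_cast; ring)).symm
  set a : ℤ := 12 - 2 * (nb : ℤ) with hadef
  set b : ℤ := 27 - 2 * (nd : ℤ) with hbdef
  have haz : (α : G → ℂ) z = (a : ℂ) := by
    have e : (na : ℂ) = 12 - nb := by rw [eq_sub_iff_add_eq]; exact_mod_cast hA
    rw [a2, e, hadef]; push_cast; ring
  have hbz : (β : G → ℂ) z = (b : ℂ) := by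
    have e : (nc : ℂ) = 27 - nd := by rw [eq_sub_iff_add_eq]; exact_mod_cast hB
    rw [b2, e, hbdef]; push_cast; ring
  have htz : ∀ θ ∈ Y, (θ : G → ℂ) z = ((1 - a + b : ℤ) : ℂ) := fun θ hθ => by
    rw [B.rel θ hθ z hz13, haz, hbz]; push_cast; ring
  obtain ⟨θ₀, hθ₀⟩ : Y.Nonempty := Finset.card_pos.mp (by rw [B.cardY]; norm_num)
  have hθ1 : θ₀ ≠ oneChar G := fun e => B.mem.1 (e ▸ hθ₀)
  -- proper values
  have hnb0 : nb ≠ 0 := fun e => hz1 (eq_one_of_value_eq_degree hne1 (by rw [a2, a1, e]; simp))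
  have hna0 : na ≠ 0 := fun e =>
    value_ne_neg_degree hG hne1 hz1 (by rw [a2, a1, e]; simp)
  have hnd0 : nd ≠ 0 := fun e => hz1 (eq_one_of_value_eq_degree hne2 (by rw [b2, b1, e]; simp))
  have ht16 : 1 - a + b ≠ -16 := fun e => value_ne_neg_degree hG hθ1 hz1 (by
    rw [htz θ₀ hθ₀, e, ← coe_charDegree, B.degY θ₀ hθ₀]; norm_num)
  -- no two conjugates of `z` have product `x`
  have hcount : (Finset.univ.filter
      fun q : G × G => q.1 * z * q.1⁻¹ * (q.2 * z * q.2⁻¹) = x).card = 0 := by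
    refine Finset.card_eq_zero.mpr (Finset.filter_eq_empty_iff.mpr fun q _ hq => ?_)
    have hsq : ∀ g : G, g * z * g⁻¹ * (g * z * g⁻¹) = 1 := fun g => by
      calc g * z * g⁻¹ * (g * z * g⁻¹) = g * (z * z) * g⁻¹ := by group
        _ = 1 := by rw [hz2]; group
    refine B.no_inv (q.1 * z * q.1⁻¹) ?_
    have i1 := inv_eq_of_mul_eq_one_right (hsq q.1)
    have i2 := inv_eq_of_mul_eq_one_right (hsq q.2)
    set w := q.1 * z * q.1⁻¹
    set w' := q.2 * z * q.2⁻¹
    rw [← hq, mul_inv_rev w w', i1, i2]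
    calc w * (w * w') * w = (w * w) * w' * w := by group
      _ = w' * w := by rw [hsq q.1, one_mul]
  have heq : (432 : ℤ) - 36 * a ^ 2 + 16 * b ^ 2 - 27 * (1 - a + b) ^ 2 = 0 := by
    have h1 := sum_pairs z x
    rw [hcount, Finset.sum_congr rfl (fun (χ : IrrCharacter G) _ =>
      show (χ : G → ℂ) x⁻¹ * ((χ : G → ℂ) z * (χ : G → ℂ) z) * ((Nat.card G : ℂ) / (χ : G → ℂ) 1) =
        (χ : G → ℂ) x⁻¹ * (((χ : G → ℂ) z * (χ : G → ℂ) z) * ((Nat.card G : ℂ) / (χ : G → ℂ) 1)) by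
          ring),
      B.sum_x _ (((1 - a + b : ℤ) : ℂ) ^ 2 * (5616 / 16)) (fun θ hθ => by
        rw [htz θ hθ, ← coe_charDegree θ, B.degY θ hθ, h]; push_cast; ring),
      oneChar_apply, oneChar_apply, haz, hbz, ← coe_charDegree α, B.degA, ← coe_charDegree β,
      B.degB, h] at h1
    apply Int.cast_injective (α := ℂ)
    push_cast at h1 ⊢
    linear_combination (-1 / 13 : ℂ) * h1
  have hcases : (a = 4 ∧ b = 3) ∨ (a = 0 ∧ b = -9) ∨ (a = 8 ∧ b = 15) := by
    have key : ∀ i ∈ Finset.range 13, ∀ j ∈ Finset.range 28, i % 2 = 0 → j % 2 = 0 →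
        i ≠ 0 → i ≠ 12 → j ≠ 0 →
        (432 : ℤ) - 36 * (12 - 2 * (i : ℤ)) ^ 2 + 16 * (27 - 2 * (j : ℤ)) ^ 2 -
          27 * (1 - (12 - 2 * (i : ℤ)) + (27 - 2 * (j : ℤ))) ^ 2 = 0 →
        (1 - (12 - 2 * (i : ℤ)) + (27 - 2 * (j : ℤ))) ≠ -16 →
        (i = 4 ∧ j = 12) ∨ (i = 6 ∧ j = 18) ∨ (i = 2 ∧ j = 6) := by
      decide +kernel
    have := key nb (Finset.mem_range.mpr (by omega)) nd (Finset.mem_range.mpr (by omega))
      (Nat.even_iff.mp hb) (Nat.even_iff.mp hd) hnb0 (by omega) hnd0 heq ht16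
    omega
  -- class size and column norm
  set C := Nat.card (Subgroup.centralizer ({z} : Set G)) with hCdef
  obtain ⟨K, hK, hKa⟩ := charDegree_dvd_class α z a haz
  obtain ⟨K', hK', hKb⟩ := charDegree_dvd_class β z b hbz
  have hKK : K = K' := Nat.eq_of_mul_eq_mul_right Nat.card_pos (hK.symm.trans hK')
  subst hKK
  rw [B.degA] at hKa
  rw [B.degB] at hKb
  rw [h, ← hCdef] at hK
  have h13 : 13 ∣ K := by
    have : 13 ∣ K * C := by rw [← hK]; norm_num
    exact ((Nat.Prime.dvd_mul (by norm_num)).mp this).resolve_right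
      (thirteen_not_dvd_cent h hz1 hz13)
  have hbound : 1 + a ^ 2 + b ^ 2 + 4 * (1 - a + b) ^ 2 ≤ (C : ℤ) := by
    have h1 : ∑ χ ∈ blockSet α β Y, ‖(χ : G → ℂ) z‖ ^ 2 ≤ (C : ℝ) :=
      sum_irr_norm_sq z ▸ Finset.sum_le_sum_of_subset_of_nonneg (Finset.subset_univ _)
        fun _ _ _ => sq_nonneg _
    rw [B.sum, oneChar_apply, haz, hbz, Finset.sum_congr rfl fun θ hθ => by rw [htz θ hθ],
      Finset.sum_const, B.cardY] at h1
    simp only [norm_one, one_pow, Complex.norm_intCast, sq_abs, nsmul_eq_mul] at h1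
    rify
    push_cast at h1 ⊢
    linarith
  rcases hcases with ⟨ea, eb⟩ | ⟨ea, eb⟩ | ⟨ea, eb⟩ <;> rw [ea, eb] at hbound <;>
    rw [ea] at hKa <;> rw [eb] at hKb <;> norm_num at hbound
  · refine ⟨by rw [haz, ea]; norm_num, by rw [hbz, eb]; norm_num,
      fun θ hθ => by rw [htz θ hθ, ea, eb]; norm_num, ?_⟩
    have h3 : 3 ∣ K := by
      change 12 ∣ K * 4 at hKa
      omega
    have h9 : 9 ∣ K := by
      change 27 ∣ K * 3 at hKb
      omega
    obtain ⟨m, hm⟩ : 117 ∣ K := by omega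
    subst hm
    have hmC : m * C = 48 := Nat.eq_of_mul_eq_mul_left (show 0 < 117 by norm_num)
      (by rw [← mul_assoc, ← hK])
    have hm0 : m ≠ 0 := fun e => by rw [e, zero_mul] at hmC; omega
    have hm1 : m ≤ 1 := by nlinarith
    obtain rfl : m = 1 := by omega
    omega
  · exfalso
    change 27 ∣ K * 9 at hKb
    have h3 : 3 ∣ K := by omega
    have hK39 : 39 ≤ K := Nat.le_of_dvd (Nat.pos_of_ne_zero fun e => by
      rw [e, zero_mul] at hK; omega) (by omega)
    nlinarith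
  · exfalso
    have hK13 : 13 ≤ K := Nat.le_of_dvd (Nat.pos_of_ne_zero fun e => by
      rw [e, zero_mul] at hK; omega) h13
    nlinarith

/-- One class of involutions. -/
theorem Block.invol_conj [IsSimpleGroup G] (h : Nat.card G = 5616) (B : Block G x α β Y) {z w : G}
    (hz1 : z ≠ 1) (hz2 : z * z = 1) (hw1 : w ≠ 1) (hw2 : w * w = 1) : IsConj z w := by
  by_contra hc
  obtain ⟨a1, b1, t1, c1⟩ := B.invol h hz1 hz2
  obtain ⟨a2, b2, t2, c2⟩ := B.invol h hw1 hw2
  haveI := Fintype.ofFinite G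
  have hzero : (∑ χ : IrrCharacter G, (χ : G → ℂ) z * conj ((χ : G → ℂ) w)).re = 0 := by
    rw [sum_irr_mul_conj, if_neg hc, Complex.zero_re]
  have hall : ∑ χ : IrrCharacter G, ‖(χ : G → ℂ) z + (χ : G → ℂ) w‖ ^ 2 = 96 := by
    simp only [Complex.sq_norm, Complex.normSq_add]
    rw [Finset.sum_add_distrib, Finset.sum_add_distrib, ← Finset.mul_sum, ← Complex.re_sum, hzero]
    simp only [← Complex.sq_norm]
    rw [sum_irr_norm_sq, sum_irr_norm_sq, c1, c2]
    norm_num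
  have hle : ∑ χ ∈ blockSet α β Y, ‖(χ : G → ℂ) z + (χ : G → ℂ) w‖ ^ 2 ≤ 96 :=
    hall ▸ Finset.sum_le_sum_of_subset_of_nonneg (Finset.subset_univ _) fun _ _ _ => sq_nonneg _
  rw [B.sum, oneChar_apply, oneChar_apply, a1, a2, b1, b2,
    Finset.sum_congr rfl fun θ hθ => by rw [t1 θ hθ, t2 θ hθ]] at hle
  norm_num at hle

/-- Pairs of conjugates of `z` and `y` with prescribed product. -/
theorem sum_pairs_mixed [Fintype G] (z y x : G) :
    ((Finset.univ.filter fun q : G × G => q.1 * z * q.1⁻¹ * (q.2 * y * q.2⁻¹) = x).card : ℂ) =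
      ∑ χ : IrrCharacter G, (χ : G → ℂ) x⁻¹ * (((χ : G → ℂ) z * (χ : G → ℂ) y) *
        ((Nat.card G : ℂ) / (χ : G → ℂ) 1)) := by
  have hreg : ∀ g : G, (if g = 1 then (1 : ℂ) else 0) =
      (Nat.card G : ℂ)⁻¹ * ∑ χ : IrrCharacter G, (χ : G → ℂ) 1 * (χ : G → ℂ) g := fun g => by
    rw [sum_irr_map_one_mul]
    split_ifs
    · rw [inv_mul_cancel₀ natCard_ne_zero]
    · rw [mul_zero]
  calc ((Finset.univ.filter fun q : G × G => q.1 * z * q.1⁻¹ * (q.2 * y * q.2⁻¹) = x).card : ℂ)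
      = ∑ b : G, ∑ a : G, if x⁻¹ * (b * z * b⁻¹) * (a * y * a⁻¹) = 1 then (1 : ℂ) else 0 := by
        rw [← Fintype.sum_prod_type', ← Finset.sum_boole]
        refine Finset.sum_congr rfl fun q _ => ?_
        refine if_congr ?_ rfl rfl
        rw [mul_assoc x⁻¹, inv_mul_eq_one]
        exact eq_comm
    _ = ∑ χ : IrrCharacter G, (Nat.card G : ℂ)⁻¹ * (χ : G → ℂ) 1 *
          ∑ b : G, ∑ a : G, (χ : G → ℂ) (x⁻¹ * (b * z * b⁻¹) * (a * y * a⁻¹)) := by
        simp only [hreg, Finset.mul_sum]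
        rw [Finset.sum_comm (γ := IrrCharacter G)]
        refine Finset.sum_congr rfl fun b _ => ?_
        rw [Finset.sum_comm]
        exact Finset.sum_congr rfl fun χ _ => Finset.sum_congr rfl fun a _ => by ring
    _ = _ := Finset.sum_congr rfl fun χ _ => by
        rw [Finset.sum_congr rfl fun b _ => sum_map_mul_conjugate χ _ y, ← Finset.sum_div,
          ← Finset.mul_sum, ← Finset.sum_mul, sum_map_mul_conjugate χ _ z]
        have h1 := map_one_ne_zero χ
        have h2 : (Nat.card G : ℂ) ≠ 0 := natCard_ne_zero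
        field_simp

/-- The pairs of an involution and an element conjugate to `y` with product `x` come in orbits of
length thirteen. -/
theorem Block.pairs_count [Fintype G] [IsSimpleGroup G] (h : Nat.card G = 5616)
    (B : Block G x α β Y) {z : G} (hz1 : z ≠ 1) (hz2 : z * z = 1) (y : G) :
    ∃ k : ℕ, (Finset.univ.filter
      fun q : G × G => q.1 * z * q.1⁻¹ * (q.2 * y * q.2⁻¹) = x).card =
      13 * k * (48 * Nat.card (Subgroup.centralizer ({y} : Set G))) := by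
  haveI : Fact (Nat.Prime 13) := ⟨by norm_num⟩
  set c := Nat.card (Subgroup.centralizer ({y} : Set G))
  set U := Finset.univ.filter fun u : G => IsConj z u ∧ IsConj y (u⁻¹ * x) with hU
  obtain ⟨-, -, -, hC48⟩ := B.invol h hz1 hz2
  have hcount : ∀ a b : G, IsConj a b → (Finset.univ.filter fun g : G => g * a * g⁻¹ = b).card =
      Nat.card (Subgroup.centralizer ({a} : Set G)) := by
    intro a b hab
    have h1 := card_conjugators a b
    rw [if_pos hab] at h1
    exact_mod_cast h1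
  set S := Finset.univ.filter fun q : G × G => q.1 * z * q.1⁻¹ * (q.2 * y * q.2⁻¹) = x with hS
  have hmaps : ∀ q ∈ S, q.1 * z * q.1⁻¹ ∈ U := by
    intro q hq
    exact Finset.mem_filter.mpr ⟨Finset.mem_univ _, isConj_iff.mpr ⟨q.1, rfl⟩,
      isConj_iff.mpr ⟨q.2, eq_inv_mul_iff_mul_eq.mpr (Finset.mem_filter.mp hq).2⟩⟩
  have hfibre : ∀ u ∈ U, (S.filter fun q => q.1 * z * q.1⁻¹ = u).card = 48 * c := by
    intro u hu
    obtain ⟨-, hu1, hu2⟩ := Finset.mem_filter.mp hu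
    have e : (S.filter fun q => q.1 * z * q.1⁻¹ = u) =
        (Finset.univ.filter fun g : G => g * z * g⁻¹ = u) ×ˢ
          (Finset.univ.filter fun g : G => g * y * g⁻¹ = u⁻¹ * x) := by
      ext ⟨g, k⟩
      simp only [hS, Finset.mem_filter, Finset.mem_univ, true_and, Finset.mem_product]
      constructor
      · rintro ⟨e1, e2⟩
        rw [e2] at e1
        exact ⟨e2, eq_inv_mul_iff_mul_eq.mpr e1⟩
      · rintro ⟨e1, e2⟩
        exact ⟨by rw [e1, e2, mul_inv_cancel_left], e1⟩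
    rw [e, Finset.card_product, hcount z u hu1, hcount y _ hu2, hC48]
  have hfib : S.card = U.card * (48 * c) := by
    rw [Finset.card_eq_sum_card_fiberwise (fun q hq => hmaps q hq),
      Finset.sum_congr rfl hfibre, Finset.sum_const, smul_eq_mul]
  have h13 : 13 ∣ U.card := by
    let X := {u : G // IsConj z u ∧ IsConj y (u⁻¹ * x)}
    have hcx : ∀ a : Subgroup.zpowers x, Commute (a : G) x := fun a => by
      obtain ⟨n, hn⟩ := Subgroup.mem_zpowers_iff.mp a.2
      rw [← hn]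
      exact (Commute.refl x).zpow_left n
    have hstep : ∀ (a : Subgroup.zpowers x) (u : X), IsConj z ((a : G) * u.1 * (a : G)⁻¹) ∧
        IsConj y (((a : G) * u.1 * (a : G)⁻¹)⁻¹ * x) := fun a u => by
      refine ⟨u.2.1.trans (isConj_iff.mpr ⟨a, rfl⟩), u.2.2.trans (isConj_iff.mpr ⟨a, ?_⟩)⟩
      calc (a : G) * (u.1⁻¹ * x) * (a : G)⁻¹ = (a : G) * u.1⁻¹ * (x * (a : G)⁻¹) := by group
        _ = (a : G) * u.1⁻¹ * ((a : G)⁻¹ * x) := by rw [((hcx a).inv_left.eq).symm]
        _ = _ := by group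
    letI : MulAction (Subgroup.zpowers x) X :=
      { smul := fun a u => ⟨(a : G) * u.1 * (a : G)⁻¹, hstep a u⟩
        one_smul := fun u => Subtype.ext (by
          show ((1 : Subgroup.zpowers x) : G) * u.1 * ((1 : Subgroup.zpowers x) : G)⁻¹ = u.1
          simp)
        mul_smul := fun a b u => Subtype.ext (by
          show ((a * b : Subgroup.zpowers x) : G) * u.1 * ((a * b : Subgroup.zpowers x) : G)⁻¹ =
            (a : G) * ((b : G) * u.1 * (b : G)⁻¹) * (a : G)⁻¹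
          rw [Subgroup.coe_mul]; group) }
    have hP : IsPGroup 13 (Subgroup.zpowers x) :=
      IsPGroup.of_card (n := 1) (by rw [Nat.card_zpowers, B.order, pow_one])
    have h0 : Nat.card (MulAction.fixedPoints (Subgroup.zpowers x) X) = 0 := by
      rw [Nat.card_eq_zero]
      refine Or.inl ⟨fun ⟨u, hu⟩ => ?_⟩
      have e : x * u.1 * x⁻¹ = u.1 := congrArg Subtype.val (hu ⟨x, Subgroup.mem_zpowers x⟩)
      obtain ⟨g, hg⟩ := isConj_iff.mp u.2.1
      have hu1 : u.1 ≠ 1 := fun e' => hz1 (by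
        rw [e', mul_inv_eq_one, mul_eq_left] at hg; exact hg)
      have hu2 : u.1 * u.1 = 1 := by
        rw [← hg]
        calc g * z * g⁻¹ * (g * z * g⁻¹) = g * (z * z) * g⁻¹ := by group
          _ = 1 := by rw [hz2]; group
      refine thirteen_not_dvd_cent h hu1 (orderOf_invol hu1 hu2).2 ?_
      rw [← B.order]
      exact Subgroup.orderOf_dvd_natCard _
        (Subgroup.mem_centralizer_singleton_iff.mpr (mul_inv_eq_iff_eq_mul.mp e))
    have := hP.card_modEq_card_fixedPoints X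
    rw [h0] at this
    rw [hU, ← Fintype.card_subtype, ← Nat.card_eq_fintype_card]
    exact Nat.modEq_zero_iff_dvd.mp this
  obtain ⟨k, hk⟩ := h13
  exact ⟨k, by rw [hfib, hk]⟩

/-- `r + s ω` for the first primitive cube root of unity `ω`. -/
noncomputable def eisen (r s : ℤ) : ℂ := (r : ℂ) + (s : ℂ) * ZMod.stdAddChar (1 : ZMod 3)

theorem omega_facts : ZMod.stdAddChar (2 : ZMod 3) = (ZMod.stdAddChar (1 : ZMod 3) : ℂ) ^ 2 ∧
    1 + ZMod.stdAddChar (1 : ZMod 3) + (ZMod.stdAddChar (1 : ZMod 3) : ℂ) ^ 2 = 0 ∧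
    conj (ZMod.stdAddChar (1 : ZMod 3) : ℂ) = (ZMod.stdAddChar (1 : ZMod 3) : ℂ) ^ 2 ∧
    IsIntegral ℤ (ZMod.stdAddChar (1 : ZMod 3) : ℂ) := by
  set ω : ℂ := ZMod.stdAddChar (1 : ZMod 3) with hω
  have hω2 : ZMod.stdAddChar (2 : ZMod 3) = ω ^ 2 := by rw [hω, ← AddChar.map_nsmul_eq_pow]; rfl
  have hω3 : ω ^ 3 = 1 := by
    rw [hω, ← AddChar.map_nsmul_eq_pow, show (3 : ℕ) • (1 : ZMod 3) = 0 from by decide,
      AddChar.map_zero_eq_one]
  have hω1 : ω ≠ 1 := fun h => by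
    have := ZMod.injective_stdAddChar (N := 3) (h.trans (AddChar.map_zero_eq_one _).symm)
    exact absurd this (by decide)
  refine ⟨hω2, (mul_eq_zero.mp (by linear_combination hω3 :
    (ω - 1) * (1 + ω + ω ^ 2) = 0)).resolve_left (sub_ne_zero.mpr hω1), ?_,
    IsIntegral.of_pow (show 0 < 3 by norm_num) (by rw [hω3]; exact isIntegral_one)⟩
  rw [← hω2, hω, conj_stdAddChar]
  rfl

theorem eisen_eq_zero {r s : ℤ} (h : eisen r s = 0) : r = 0 ∧ s = 0 := by
  obtain ⟨-, hsum, hconj, -⟩ := omega_facts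
  set ω : ℂ := ZMod.stdAddChar (1 : ZMod 3) with hω
  have h1 : (r : ℂ) + s * ω = 0 := h
  have h2 := congrArg conj h1
  simp only [map_add, map_mul, map_intCast, map_zero, hconj] at h2
  have hs : (s : ℂ) * (ω - ω ^ 2) = 0 := by linear_combination h1 - h2
  have hne : ω - ω ^ 2 ≠ 0 := by
    intro e
    have : (2 * ω + 1) = (0 : ℂ) := by linear_combination hsum + e
    have h3 : (ω : ℂ) = -1 / 2 := by linear_combination this / 2
    rw [h3] at hsum
    norm_num at hsum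
  have hs0 : s = 0 := by exact_mod_cast (mul_eq_zero.mp hs).resolve_right hne
  refine ⟨?_, hs0⟩
  rw [hs0] at h1
  simpa using h1

theorem norm_eisen (r s : ℤ) : ‖eisen r s‖ ^ 2 = ((r ^ 2 - r * s + s ^ 2 : ℤ) : ℝ) := by
  obtain ⟨-, hsum, hconj, -⟩ := omega_facts
  set ω : ℂ := ZMod.stdAddChar (1 : ZMod 3) with hω
  apply Complex.ofReal_injective
  rw [Complex.sq_norm, ← Complex.mul_conj]
  show ((r : ℂ) + s * ω) * conj ((r : ℂ) + s * ω) = _
  simp only [map_add, map_mul, map_intCast, hconj]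
  push_cast
  linear_combination ((r : ℂ) * s + (s : ℂ) ^ 2 * (ω - 1)) * hsum

/-- An integer whose quotient by a natural number is an algebraic integer is divisible by it. -/
theorem int_dvd_of_isIntegral {m : ℤ} {d : ℕ} (hd : d ≠ 0)
    (h : IsIntegral ℤ ((m : ℂ) / (d : ℂ))) : (d : ℤ) ∣ m := by
  rw [Int.natCast_dvd]
  refine dvd_of_isIntegral_div hd ?_
  rcases Int.natAbs_eq m with e | e
  · rwa [e, Int.cast_natCast] at h
  · rw [e, Int.cast_neg, Int.cast_natCast, neg_div] at h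
    simpa using h.neg

/-- The divisibility of the coordinates of a value by the degree. -/
theorem dvd_coords {K d : ℕ} (hd : d ≠ 0) {r s : ℤ}
    (h : IsIntegral ℤ ((K : ℂ) * eisen r s / (d : ℂ))) :
    (d : ℤ) ∣ (K : ℤ) * (2 * r - s) ∧ (d : ℤ) ∣ (K : ℤ) * (2 * s - r) := by
  obtain ⟨-, hsum, hconj, hint⟩ := omega_facts
  set ω : ℂ := ZMod.stdAddChar (1 : ZMod 3) with hω
  have h' : IsIntegral ℤ ((K : ℂ) * conj (eisen r s) / (d : ℂ)) := by
    have := h.map (starRingEnd ℂ).toIntAlgHom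
    simpa [map_div₀] using this
  have hc : conj (eisen r s) = (r : ℂ) + s * ω ^ 2 := by
    show conj ((r : ℂ) + s * ω) = _
    simp only [map_add, map_mul, map_intCast, hconj]
  have e1 : (K : ℂ) * eisen r s / (d : ℂ) + (K : ℂ) * conj (eisen r s) / (d : ℂ) =
      (((K : ℤ) * (2 * r - s) : ℤ) : ℂ) / (d : ℂ) := by
    rw [hc, show eisen r s = (r : ℂ) + s * ω from rfl]
    push_cast
    linear_combination ((K : ℂ) * s / (d : ℂ)) * hsum
  have e2 : (K : ℂ) * eisen r s / (d : ℂ) * ω ^ 2 + (K : ℂ) * conj (eisen r s) / (d : ℂ) * ω =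
      (((K : ℤ) * (2 * s - r) : ℤ) : ℂ) / (d : ℂ) := by
    rw [hc, show eisen r s = (r : ℂ) + s * ω from rfl]
    push_cast
    linear_combination ((K : ℂ) * r / (d : ℂ) + 2 * (K : ℂ) * s * (ω - 1) / (d : ℂ)) * hsum
  exact ⟨int_dvd_of_isIntegral hd (e1 ▸ h.add h'),
    int_dvd_of_isIntegral hd (e2 ▸ (h.mul (hint.pow 2)).add (h'.mul hint))⟩

/-- The finite check: no admissible values at an element of order three. -/
def threeFree (c : ℕ) : Bool :=
  let K : ℤ := (5616 / c : ℕ)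
  let R : List ℤ := (List.range 51).map fun n => (n : ℤ) - 25
  let nrm := fun r s : ℤ => r ^ 2 - r * s + s ^ 2
  R.all fun ra => R.all fun sa =>
    if decide (nrm ra sa ≤ c ∧ K * (2 * ra - sa) % 12 = 0 ∧ K * (2 * sa - ra) % 12 = 0) then
      R.all fun rb =>
        let tr := 1 - ra + rb
        !decide (0 ≤ 9 - 3 * ra + rb ∧ (9 - 3 * ra + rb) % c = 0 ∧
          1 + nrm ra sa + nrm rb (3 * sa) + 4 * nrm tr (2 * sa) ≤ c ∧
          K * (2 * rb - 3 * sa) % 27 = 0 ∧ K * (6 * sa - rb) % 27 = 0 ∧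
          K * (2 * tr - 2 * sa) % 16 = 0 ∧ K * (4 * sa - tr) % 16 = 0)
    else true

theorem coord_bound {r s c : ℤ} (h : r ^ 2 - r * s + s ^ 2 ≤ c) (hc : c ≤ 432) :
    -25 ≤ r ∧ r ≤ 25 ∧ -25 ≤ s ∧ s ≤ 25 := by
  have h1 : 3 * r ^ 2 ≤ 1728 := by linarith [sq_nonneg (r - 2 * s)]
  have h2 : 3 * s ^ 2 ≤ 1728 := by linarith [sq_nonneg (2 * r - s)]
  refine ⟨?_, ?_, ?_, ?_⟩ <;> nlinarith

/-- What the finite check excludes. -/
theorem threeFree_spec {c K k : ℕ} (hc : c ∣ 432) (h36 : 36 ∣ c) (hKc : K * c = 5616)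
    {ra sa rb : ℤ} (hck : 9 - 3 * ra + rb = (c : ℤ) * k)
    (hbound : 1 + (ra ^ 2 - ra * sa + sa ^ 2) + (rb ^ 2 - rb * (3 * sa) + (3 * sa) ^ 2) +
      4 * ((1 - ra + rb) ^ 2 - (1 - ra + rb) * (2 * sa) + (2 * sa) ^ 2) ≤ (c : ℤ))
    (ia : 12 ∣ (K : ℤ) * (2 * ra - sa) ∧ 12 ∣ (K : ℤ) * (2 * sa - ra))
    (ib : 27 ∣ (K : ℤ) * (2 * rb - 3 * sa) ∧ 27 ∣ (K : ℤ) * (6 * sa - rb))
    (it : 16 ∣ (K : ℤ) * (2 * (1 - ra + rb) - 2 * sa) ∧
      16 ∣ (K : ℤ) * (4 * sa - (1 - ra + rb))) : False := by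
  have hc0 : (c : ℤ) ≤ 432 := by exact_mod_cast Nat.le_of_dvd (by norm_num) hc
  have na0 : 0 ≤ ra ^ 2 - ra * sa + sa ^ 2 := by nlinarith [sq_nonneg (ra - sa)]
  have nb0 : 0 ≤ rb ^ 2 - rb * (3 * sa) + (3 * sa) ^ 2 := by nlinarith [sq_nonneg (rb - 3 * sa)]
  have nt0 : 0 ≤ (1 - ra + rb) ^ 2 - (1 - ra + rb) * (2 * sa) + (2 * sa) ^ 2 := by
    nlinarith [sq_nonneg (1 - ra + rb - 2 * sa)]
  have hA : ra ^ 2 - ra * sa + sa ^ 2 ≤ (c : ℤ) := by linarith
  have hB : rb ^ 2 - rb * (3 * sa) + (3 * sa) ^ 2 ≤ (c : ℤ) := by linarith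
  obtain ⟨a1, a2, a3, a4⟩ := coord_bound hA hc0
  obtain ⟨b1, b2, -, -⟩ := coord_bound hB hc0
  have hmemR : ∀ v : ℤ, -25 ≤ v → v ≤ 25 →
      v ∈ (List.range 51).map fun (n : ℕ) => (n : ℤ) - 25 := by
    intro v h1 h2
    rw [List.mem_map]
    refine ⟨(v + 25).toNat, ?_, ?_⟩
    · rw [List.mem_range]; omega
    · omega
  have hfree : threeFree c = true := by
    have key : ∀ d ∈ Nat.divisors 432, 36 ∣ d → threeFree d = true := by decide +kernel
    exact key c (Nat.mem_divisors.mpr ⟨hc, by norm_num⟩) h36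
  have hc1 : 0 < c := Nat.pos_of_ne_zero fun e => by rw [e, mul_zero] at hKc; omega
  have hKz : ((5616 / c : ℕ) : ℤ) = (K : ℤ) := by
    rw [← hKc, Nat.mul_div_cancel _ hc1]
  simp only [threeFree, hKz, List.all_eq_true] at hfree
  have h3 := hfree ra (hmemR ra a1 a2) sa (hmemR sa a3 a4)
  rw [if_pos (decide_eq_true ⟨hA, Int.emod_eq_zero_of_dvd ia.1, Int.emod_eq_zero_of_dvd ia.2⟩),
    List.all_eq_true] at h3
  have h4 := h3 rb (hmemR rb b1 b2)
  rw [Bool.not_eq_true', decide_eq_false_iff_not] at h4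
  exact h4 ⟨by rw [hck]; positivity, by rw [hck]; exact Int.mul_emod_right _ _, hbound,
    Int.emod_eq_zero_of_dvd ib.1, Int.emod_eq_zero_of_dvd ib.2, Int.emod_eq_zero_of_dvd it.1,
    Int.emod_eq_zero_of_dvd it.2⟩

/-- No element of order three has a centraliser of order divisible by 36. -/
theorem Block.three_cent [IsSimpleGroup G] (h : Nat.card G = 5616) (B : Block G x α β Y) {y : G}
    (hy1 : y ≠ 1) (hy3 : y ^ 3 = 1) :
    ¬ 36 ∣ Nat.card (Subgroup.centralizer ({y} : Set G)) := by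
  haveI := Fintype.ofFinite G
  haveI : Fact (Nat.Prime 3) := ⟨Nat.prime_three⟩
  intro h36
  set c := Nat.card (Subgroup.centralizer ({y} : Set G)) with hc
  have hy13 : ¬ 13 ∣ orderOf y := by
    rw [orderOf_eq_prime hy3 hy1]; norm_num
  have hc432 : c ∣ 432 := by
    have h1 : c ∣ 13 * 432 := by
      rw [show 13 * 432 = Nat.card G by rw [h]]
      exact Subgroup.card_subgroup_dvd_card _
    refine Nat.Coprime.dvd_of_dvd_mul_left ?_ h1
    exact ((Nat.Prime.coprime_iff_not_dvd (by norm_num)).mpr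
      (thirteen_not_dvd_cent h hy1 hy13)).symm
  obtain ⟨z, hz⟩ := exists_prime_orderOf_dvd_card' (G := G) 2 (hp := ⟨Nat.prime_two⟩)
    (by rw [h]; norm_num)
  have hz1 : z ≠ 1 := fun e => by rw [e, orderOf_one] at hz; omega
  have hz2 : z * z = 1 := by rw [← pow_two, ← hz, pow_orderOf_eq_one]
  obtain ⟨za, zb, zt, hCz⟩ := B.invol h hz1 hz2
  obtain ⟨hω2, hsum, -, -⟩ := omega_facts
  have hlin := linear_trivial_of_simple (not_comm h)
  have hval : ∀ χ : IrrCharacter G, ∃ r s : ℤ, (χ : G → ℂ) y = eisen r s := by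
    intro χ
    obtain ⟨a, b, d, -, h2, -, -⟩ := exists_mult_three hlin hy3 (isCharacter_coe χ)
    refine ⟨(a : ℤ) - d, (b : ℤ) - d, ?_⟩
    rw [h2, hω2, eisen]
    push_cast
    linear_combination (d : ℂ) * hsum
  obtain ⟨ra, sa, hay⟩ := hval α
  obtain ⟨rb, sb, hby⟩ := hval β
  have hty : ∀ θ ∈ Y, (θ : G → ℂ) y = eisen (1 - ra + rb) (sb - sa) := fun θ hθ => by
    rw [B.rel θ hθ y hy13, hay, hby, eisen, eisen, eisen]
    push_cast; ring
  -- the count of pairs
  obtain ⟨k, hk⟩ := B.pairs_count h hz1 hz2 y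
  have hcnt := sum_pairs_mixed z y x
  rw [hk, B.sum_x _ 0 (fun θ hθ => by rw [zt θ hθ]; simp), oneChar_apply, oneChar_apply,
    oneChar_apply, za, zb, ← coe_charDegree α, B.degA, ← coe_charDegree β, B.degB, h, hay,
    hby] at hcnt
  have hlinear : eisen (9 - 3 * ra + rb - (c : ℤ) * k) (sb - 3 * sa) = 0 := by
    simp only [eisen] at hcnt ⊢
    push_cast at hcnt ⊢
    linear_combination (-1 / 624 : ℂ) * hcnt
  obtain ⟨hre, him⟩ := eisen_eq_zero hlinear
  obtain rfl : sb = 3 * sa := by omega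
  -- integrality of the central characters
  set K := (ConjClasses.mk y).carrier.ncard with hK
  have hKc : K * c = 5616 := by
    rw [← h, hK, hc, ← Nat.card_coe_set_eq]
    exact card_carrier_mul_card_centralizer y
  have hint : ∀ (χ : IrrCharacter G) (r s : ℤ), (χ : G → ℂ) y = eisen r s →
      IsIntegral ℤ ((K : ℂ) * eisen r s / (charDegree (χ : G → ℂ) : ℂ)) := by
    intro χ r s hv
    have h1 := isIntegral_centralChar χ y
    rwa [centralChar, ← card_carrier_eq_index, hv, ← coe_charDegree, Nat.card_coe_set_eq,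
      ← hK] at h1
  obtain ⟨θ₀, hθ₀⟩ : Y.Nonempty := Finset.card_pos.mp (by rw [B.cardY]; norm_num)
  have ia := dvd_coords (by rw [B.degA]; norm_num) (hint α _ _ hay)
  have ib := dvd_coords (by rw [B.degB]; norm_num) (hint β _ _ hby)
  have it := dvd_coords (by rw [B.degY θ₀ hθ₀]; norm_num) (hint θ₀ _ _ (hty θ₀ hθ₀))
  rw [B.degA] at ia
  rw [B.degB] at ib
  rw [B.degY θ₀ hθ₀] at it
  -- the column norm
  have hbound : 1 + (ra ^ 2 - ra * sa + sa ^ 2) + (rb ^ 2 - rb * (3 * sa) + (3 * sa) ^ 2) +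
      4 * ((1 - ra + rb) ^ 2 - (1 - ra + rb) * (2 * sa) + (2 * sa) ^ 2) ≤ (c : ℤ) := by
    have h1 : ∑ χ ∈ blockSet α β Y, ‖(χ : G → ℂ) y‖ ^ 2 ≤ (c : ℝ) :=
      sum_irr_norm_sq y ▸ Finset.sum_le_sum_of_subset_of_nonneg (Finset.subset_univ _)
        fun _ _ _ => sq_nonneg _
    rw [B.sum, oneChar_apply, hay, hby, norm_eisen, norm_eisen,
      Finset.sum_congr rfl fun θ hθ => by rw [hty θ hθ, norm_eisen],
      Finset.sum_const, B.cardY, norm_one, nsmul_eq_mul, show 3 * sa - sa = 2 * sa by ring] at h1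
    rify
    push_cast at h1 ⊢
    linarith
  rw [show 2 * (3 * sa) - rb = 6 * sa - rb by ring] at ib
  rw [show 3 * sa - sa = 2 * sa by ring, show 2 * (2 * sa) - (1 - ra + rb) = 4 * sa - (1 - ra + rb)
    by ring] at it
  exact threeFree_spec (k := k) hc432 h36 hKc (by omega) hbound ia ib it

end CfsgLib.DegreeOrder.L33
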