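import Mathlib
import Cfsg.Agent.Eq.Def_DegreeGraph
import Cfsg.Agent.Chars.Induced.Ito
import Cfsg.Agent.SylowToolkit.Basic
import Cfsg.Agent.Solvable.MinNormal

/-!
# Normal subgroups of prime order in groups of small order
-/

set_option autoImplicit false

namespace CfsgLib.DegreeOrder

open Cfsg Subgroup
open scoped Pointwise

universe u

variable {G : Type u} [Group G]

/-- The orders of the non-abelian simple groups of order below 6000. -/
def simpleOrders : List ℕ := [60, 168, 360, 504, 660, 1092, 2448, 2520, 3420, 4080, 5616]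

theorem isMulCommutative_of_card_prime [Finite G] {p : ℕ} (hp : p.Prime) {A : Subgroup G} (h : Nat.card A = p) :
    IsMulCommutative A := by
  haveI := Fact.mk hp
  haveI := isCyclic_of_prime_card h
  exact ⟨⟨fun a b => IsCyclic.commGroup.mul_comm a b⟩⟩

/-- Itô's theorem for the degree primes. -/
theorem not_mem_degreePrimes [Finite G] {p : ℕ} {A : Subgroup G} [A.Normal] [IsMulCommutative A]
    (h : ¬ p ∣ A.index) : p ∉ degreePrimes G := by
  rintro ⟨-, d, ⟨χ, rfl⟩, hd⟩
  exact h (hd.trans (CfsgLib.Chars.Induced.ito A χ))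

/-- A normal subgroup of a normal subgroup, of order prime to its index, is normal. -/
theorem normal_map_of_coprime [Finite G] {C : Subgroup G} [C.Normal] (A : Subgroup C) [A.Normal]
    (hcop : (Nat.card A).Coprime A.index) : (A.map C.subtype).Normal := by
  refine ⟨fun a ha g => ?_⟩
  obtain ⟨b, hb, rfl⟩ := ha
  refine ⟨⟨g * (b : G) * g⁻¹, Normal.conj_mem inferInstance _ b.2 g⟩, ?_, rfl⟩
  set c : C := ⟨g * (b : G) * g⁻¹, Normal.conj_mem inferInstance _ b.2 g⟩
  have ho : orderOf c ∣ Nat.card A := by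
    have h1 : orderOf c = orderOf b := by
      rw [← Subgroup.orderOf_coe c, ← Subgroup.orderOf_coe b]
      exact orderOf_injective (MulAut.conj g).toMonoidHom (MulAut.conj g).injective (b : G)
    rw [h1]
    exact Subgroup.orderOf_dvd_natCard A hb
  have h2 : orderOf (QuotientGroup.mk c : C ⧸ A) ∣ 1 := by
    rw [← hcop.gcd_eq_one]
    refine Nat.dvd_gcd ((orderOf_map_dvd (QuotientGroup.mk' A) c).trans ho) ?_
    exact orderOf_dvd_natCard (G := C ⧸ A) _
  rw [Nat.dvd_one, orderOf_eq_one_iff, QuotientGroup.eq_one_iff] at h2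
  exact h2

/-- A subgroup of order `p` normalising a subgroup of order `r ^ k` centralises it, unless some
`r ^ j` is `1` modulo `p`. -/
theorem le_centralizer_of_normalizes [Finite G] {p r k : ℕ} (hp : p.Prime) (hr : r.Prime) (hpr : p ≠ r)
    {P M : Subgroup G} (hP : Nat.card P = p) (hM : Nat.card M = r ^ k)
    (hnorm : P ≤ normalizer (M : Set G))
    (hno : ∀ j, 0 < j → j ≤ k → r ^ j % p ≠ 1) : P ≤ centralizer (M : Set G) := by
  haveI := Fact.mk hp
  have hPH : P ≤ P ⊔ M := le_sup_left
  have hMH : M ≤ P ⊔ M := le_sup_right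
  have hinf : P ⊓ M = ⊥ := by
    refine Subgroup.inf_eq_bot_of_coprime ?_
    rw [hP, hM]
    exact Nat.Coprime.pow_right _ ((Nat.coprime_primes hp hr).2 hpr)
  have hcard : Nat.card ↥(P ⊔ M) = p ^ 1 * r ^ k := by
    have h : Nat.card ↥((P : Set G) * (M : Set G)) = Nat.card P * Nat.card M := by
      refine (Nat.card_congr (Equiv.ofBijective
        (fun a : P × M => (⟨(a.1 : G) * a.2, Set.mul_mem_mul a.1.2 a.2.2⟩ : ↥((P : Set G) * (M : Set G))))
        ⟨fun a b hab => Subgroup.mul_injective_of_disjoint (disjoint_iff.2 hinf) (congrArg Subtype.val hab),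
         fun x => ?_⟩)).symm.trans (Nat.card_prod _ _)
      obtain ⟨a, ha, b, hb, hab⟩ := x.2
      exact ⟨(⟨a, ha⟩, ⟨b, hb⟩), Subtype.ext hab⟩
    rw [← Subgroup.coe_mul_of_left_le_normalizer_right P M hnorm] at h
    rw [← hP, ← hM, pow_one, ← h]; rfl
  have hm : ¬ p ∣ r ^ k := fun h => hpr ((Nat.prime_dvd_prime_iff_eq hp hr).1 (hp.dvd_of_dvd_pow h))
  have hone : Nat.card (Sylow p ↥(P ⊔ M)) = 1 := by
    have hd := CfsgLib.SylowToolkit.card_sylow_dvd hcard hm
    have hmod : Nat.card (Sylow p ↥(P ⊔ M)) % p = 1 := CfsgLib.SylowToolkit.card_sylow_mod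
    obtain ⟨j, hjk, hj⟩ := (Nat.dvd_prime_pow hr).1 hd
    rcases Nat.eq_zero_or_pos j with rfl | hj0
    · exact hj.trans (pow_zero r)
    · exact absurd (hj ▸ hmod) (hno j hj0 hjk)
  set P' := P.subgroupOf (P ⊔ M)
  have hP' : Nat.card P' = p := (Nat.card_congr (subgroupOfEquivOfLe hPH).toEquiv).trans hP
  let S : Sylow p ↥(P ⊔ M) := Sylow.ofCard P' (by
    rw [hP', hcard, Nat.factorization_mul (by simp [hp.ne_zero]) (pow_ne_zero _ hr.ne_zero), Finsupp.add_apply,
      Nat.factorization_eq_zero_of_not_dvd hm, hp.factorization_pow, Finsupp.single_eq_same, pow_one])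
  have hS : P'.Normal := CfsgLib.SylowToolkit.sylow_normal_of_card_eq_one hone S
  have hMn : (M.subgroupOf (P ⊔ M)).Normal :=
    (normal_subgroupOf_iff_le_normalizer hMH).2 (sup_le hnorm le_normalizer)
  intro a ha
  rw [mem_centralizer_iff]
  intro b hb
  have hd : Disjoint P' (M.subgroupOf (P ⊔ M)) := by
    rw [disjoint_iff, eq_bot_iff]
    rintro x ⟨h1, h2⟩
    have : (x : G) ∈ P ⊓ M := ⟨h1, h2⟩
    rw [hinf] at this
    exact Subgroup.mem_bot.2 (Subtype.ext (Subgroup.mem_bot.1 this))
  have := Subgroup.commute_of_normal_of_disjoint P' (M.subgroupOf (P ⊔ M)) hS hMn hd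
    ⟨a, hPH ha⟩ ⟨b, hMH hb⟩ ha hb
  exact (congrArg Subtype.val this.eq).symm

/-- The arithmetic conditions on an order `N`, a prime `p` and an exceptional prime power `Q`. -/
structure Good (N p Q : ℕ) : Prop where
  sq : ¬ p * p ∣ N
  pp : ∀ r j, r.Prime → 0 < j → r ^ j ∣ N → r ^ j % p = 1 → r ^ j = Q
  full : ∀ r, r.Prime → r ∣ Q → ¬ r * Q ∣ N

/-- The numbers used as witnesses in `goodCheck`. -/
def witnessPrimes : List ℕ := [2, 3, 5, 7, 11, 13, 17, 19]

/-- A computable form of `Good`. -/
def goodCheck (N p Q : ℕ) : Bool :=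
  decide (N ≠ 0 ∧ ¬ p * p ∣ N) &&
  ((List.range (N + 1)).filter fun d => decide (N % d = 0)).all fun d =>
    (decide (d % p ≠ 1 ∨ d = 1 ∨ d = Q) || witnessPrimes.any fun a => witnessPrimes.any fun b =>
      decide (a ≠ b ∧ d % a = 0 ∧ d % b = 0)) &&
    decide (d = 1 ∨ Q % d ≠ 0 ∨ N % (d * Q) ≠ 0)

theorem good_of_check {N p Q : ℕ} (h : goodCheck N p Q = true) : Good N p Q := by
  simp only [goodCheck, Bool.and_eq_true, decide_eq_true_eq, List.all_eq_true, List.mem_filter,
    List.mem_range, Bool.or_eq_true, List.any_eq_true, and_imp] at h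
  obtain ⟨⟨hN, hsq⟩, hd⟩ := h
  refine ⟨hsq, fun r j hr hj hdvd hmod => ?_, fun r hr hrQ hrN => ?_⟩
  · have := (hd (r ^ j) (Nat.lt_succ_of_le (Nat.le_of_dvd (Nat.pos_of_ne_zero hN) hdvd))
      (Nat.mod_eq_zero_of_dvd hdvd)).1
    rcases this with (h1 | h1 | h1) | ⟨a, ha, b, hb, hab, h1, h2⟩
    · exact absurd hmod h1
    · exact absurd h1 (Nat.one_lt_pow hj.ne' hr.one_lt).ne'
    · exact h1
    · have hprime : ∀ c ∈ witnessPrimes, c.Prime := by decide
      exact absurd (((Nat.prime_dvd_prime_iff_eq (hprime a ha) hr).1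
        ((hprime a ha).dvd_of_dvd_pow (Nat.dvd_of_mod_eq_zero h1))).trans
        ((Nat.prime_dvd_prime_iff_eq (hprime b hb) hr).1
        ((hprime b hb).dvd_of_dvd_pow (Nat.dvd_of_mod_eq_zero h2))).symm) hab
  · have hrd : r ∣ N := (dvd_mul_right r Q).trans hrN
    have := (hd r (Nat.lt_succ_of_le (Nat.le_of_dvd (Nat.pos_of_ne_zero hN) hrd))
      (Nat.mod_eq_zero_of_dvd hrd)).2
    rcases this with h1 | h1 | h1
    · exact hr.one_lt.ne' h1
    · exact h1 (Nat.mod_eq_zero_of_dvd hrQ)
    · exact h1 (Nat.mod_eq_zero_of_dvd hrN)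

theorem Good.not_dvd {N p Q : ℕ} (hg : Good N p Q) {r j : ℕ} (hr : r.Prime) (hj : 0 < j)
    (hdvd : r ^ j ∣ N) (hQ : ¬ r ∣ Q) : r ^ j % p ≠ 1 := fun h =>
  hQ (hg.pp r j hr hj hdvd h ▸ dvd_pow_self r hj.ne')

/-- The conclusion of the solvable lemma. -/
def HasSpecial (p Q : ℕ) (G : Type u) [Group G] : Prop :=
  ∃ A : Subgroup G, A.Normal ∧ (Nat.card A = p ∨ IsMulCommutative A ∧ Nat.card A = Q)

/-- In a solvable group of order dividing `N` with `p` in it, some normal subgroup has order `p`, or is abelian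
of order `Q`. -/
theorem hasSpecial_of_solvable {N p Q : ℕ} (hN : N ≠ 0) (hp : p.Prime) (hg : Good N p Q) :
    ∀ (n : ℕ) (G : Type u) [Group G] [Finite G], Nat.card G = n → Group.IsSolvable G →
      n ∣ N → p ∣ n → HasSpecial p Q G := by
  intro n
  induction n using Nat.strong_induction_on with
  | _ n IH =>
  intro G _ _ hn hsol hdvd hpn
  subst hn
  haveI := hsol
  haveI := Fact.mk hp
  haveI : Nontrivial G := Finite.one_lt_card_iff_nontrivial.1
    (hp.one_lt.trans_le (Nat.le_of_dvd Nat.card_pos hpn))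
  obtain ⟨M, r, k, hMn, hM, -, hMc, hr, hk, hMk, -⟩ :=
    CfsgLib.Solvable.exists_minimal_normal_of_solvable (G := G)
  haveI := hMn
  have hrN : r ^ k ∣ N := hMk ▸ (Subgroup.card_subgroup_dvd_card M).trans hdvd
  rcases eq_or_ne r p with rfl | hrp
  · -- a minimal normal subgroup of order `p`
    refine ⟨M, hMn, Or.inl ?_⟩
    rcases (Nat.succ_le_of_lt hk).lt_or_eq with h2 | h1
    · exact absurd ((pow_two r ▸ pow_dvd_pow r h2).trans hrN) hg.sq
    · rw [hMk, ← h1, pow_one]
  have hidx := M.card_mul_index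
  have hq : Nat.card (G ⧸ M) = M.index := rfl
  have hpq : p ∣ Nat.card (G ⧸ M) := by
    rw [hq]
    exact (hp.dvd_mul.1 (hidx.symm ▸ hpn)).resolve_left fun h =>
      hrp ((Nat.prime_dvd_prime_iff_eq hp hr).1 (hp.dvd_of_dvd_pow (hMk ▸ h))).symm
  have hqd : Nat.card (G ⧸ M) ∣ Nat.card G := hq ▸ M.index_dvd_card
  obtain ⟨A, hA, hcase⟩ := IH _ (CfsgLib.Solvable.card_quotient_lt M hM) (G ⧸ M) rfl inferInstance
    (hqd.trans hdvd) hpq
  haveI := hA
  set H := A.comap (QuotientGroup.mk' M) with hH
  have hHn : H.Normal := inferInstance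
  have hMH : M ≤ H := fun x hx => by
    rw [hH, mem_comap, show (QuotientGroup.mk' M x) = 1 from (QuotientGroup.eq_one_iff x).2 hx]
    exact one_mem A
  have hHc : Nat.card H = r ^ k * Nat.card A := by
    have h1 := H.card_mul_index
    rw [hH, Subgroup.index_comap_of_surjective _ (QuotientGroup.mk'_surjective M)] at h1
    have h2 := A.card_mul_index
    rw [← hH] at h1
    refine Nat.eq_of_mul_eq_mul_right (Nat.pos_of_ne_zero A.index_ne_zero_of_finite) ?_
    rw [h1, mul_assoc, h2, hq, ← hMk, hidx]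
  have hHd : Nat.card H ∣ N := (Subgroup.card_subgroup_dvd_card H).trans hdvd
  rcases hcase with hAp | ⟨hAc, hAQ⟩
  · by_cases hex : ∃ j, 0 < j ∧ j ≤ k ∧ r ^ j % p = 1
    · obtain ⟨j, hj, hjk, hmod⟩ := hex
      have hQ := hg.pp r j hr hj ((pow_dvd_pow r hjk).trans hrN) hmod
      rcases hjk.lt_or_eq with hlt | rfl
      · refine absurd ?_ (hg.full r hr (hQ ▸ dvd_pow_self r hj.ne'))
        rw [← hQ, ← pow_succ']
        exact (pow_dvd_pow r hlt).trans hrN
      · exact ⟨M, hMn, Or.inr ⟨hMc, hMk.trans hQ⟩⟩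
    push Not at hex
    obtain ⟨P⟩ := (inferInstance : Nonempty (Sylow p H))
    have hP : Nat.card (P : Subgroup H) = p := by
      simpa using CfsgLib.SylowToolkit.card_sylow_subgroup_eq (k := 1) (m := r ^ k)
        (by rw [hHc, hAp, pow_one, mul_comm])
        (fun h => hrp ((Nat.prime_dvd_prime_iff_eq hp hr).1 (hp.dvd_of_dvd_pow h)).symm) P
    have hcen := le_centralizer_of_normalizes hp hr (Ne.symm hrp) (P := (P : Subgroup H).map H.subtype) (M := M)
      (by rw [card_map_of_injective H.subtype_injective, hP]) hMk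
      (fun x _ => by rw [normalizer_eq_top]; trivial) hex
    have hPn : (P : Subgroup H).Normal := by
      refine ⟨fun a ha b => ?_⟩
      have hsup : (P : Subgroup H) ⊔ M.subgroupOf H = ⊤ := by
        refine Subgroup.eq_top_of_card_eq _ (le_antisymm (Subgroup.card_le_card_group _) ?_)
        refine Nat.le_of_dvd Nat.card_pos ?_
        rw [hHc, hAp]
        refine (Nat.Coprime.pow_left _ ((Nat.coprime_primes hr hp).2 hrp)).mul_dvd_of_dvd_of_dvd ?_ ?_
        · rw [← hMk, ← Nat.card_congr (subgroupOfEquivOfLe hMH).toEquiv]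
          exact card_dvd_of_le le_sup_right
        · conv_lhs => rw [← hP]
          exact card_dvd_of_le le_sup_left
      have hle : (P : Subgroup H) ⊔ M.subgroupOf H ≤ normalizer ((P : Subgroup H) : Set H) := by
        refine sup_le le_normalizer fun c hc => ?_
        rw [mem_normalizer_iff]
        intro y
        have hcy : ∀ z : H, z ∈ (P : Subgroup H) → c * z * c⁻¹ = z := fun z hz => by
          have := mem_centralizer_iff.1 (hcen ⟨z, hz, rfl⟩) (c : G) hc
          rw [mul_inv_eq_iff_eq_mul]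
          exact Subtype.ext this
        constructor
        · intro hy; rw [hcy y hy]; exact hy
        · intro hy
          have h2 : c * y * c⁻¹ = y := (MulAut.conj c).injective (hcy _ hy)
          rwa [h2] at hy
      exact (mem_normalizer_iff.1 ((hsup ▸ hle) (mem_top b)) a).1 ha
    refine ⟨(P : Subgroup H).map H.subtype, normal_map_of_coprime _ ?_, Or.inl
      (by rw [card_map_of_injective H.subtype_injective, hP])⟩
    rw [hP]
    exact hp.coprime_iff_not_dvd.2 P.not_dvd_index
  · -- an abelian normal subgroup of order `Q` modulo `M`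
    have hrQ : ¬ r ∣ Q := fun h => hg.full r hr h (by
      rw [hHc, hAQ] at hHd
      exact (mul_dvd_mul_right (dvd_pow_self r hk.ne') Q).trans hHd)
    have hcop : (r ^ k).Coprime Q := Nat.Coprime.pow_left _ (hr.coprime_iff_not_dvd.2 hrQ)
    set C := centralizer (M : Set G) with hC
    have hCn : C.Normal := inferInstance
    by_cases hCtop : C = ⊤
    · have hcentral : ∀ x ∈ M, ∀ g : G, g * x = x * g := fun x hx g =>
        (mem_centralizer_iff.1 (hCtop ▸ mem_top g : g ∈ C) x hx).symm
      have hpow : ∀ x ∈ H, x ^ Q ∈ M := fun x hx => by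
        refine (QuotientGroup.eq_one_iff _).1 ?_
        rw [QuotientGroup.mk_pow, ← hAQ]
        exact congrArg Subtype.val (pow_card_eq_one' (x := (⟨QuotientGroup.mk x, hx⟩ : A)))
      have hcomm : ∀ x ∈ H, ∀ y ∈ H, x * y = y * x := by
        intro x hx y hy
        set c := x * y * x⁻¹ * y⁻¹ with hc
        have hcM : c ∈ M := by
          refine (QuotientGroup.eq_one_iff _).1 ?_
          have := congrArg Subtype.val (hAc.is_comm.comm (⟨QuotientGroup.mk x, hx⟩ : A) ⟨QuotientGroup.mk y, hy⟩)
          simp only [coe_mul] at this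
          rw [hc, QuotientGroup.mk_mul, QuotientGroup.mk_mul, QuotientGroup.mk_mul, QuotientGroup.mk_inv,
            QuotientGroup.mk_inv, this]
          group
        have hconj : ∀ i : ℕ, x ^ i * y = c ^ i * y * x ^ i := by
          intro i
          induction i with
          | zero => simp
          | succ i ih =>
            have hxy : x * y = c * y * x := by rw [hc]; group
            have hcx : Commute x c := hcentral c hcM x
            calc x ^ (i + 1) * y = x * (x ^ i * y) := by rw [pow_succ']; group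
              _ = x * c ^ i * y * x ^ i := by rw [ih]; group
              _ = c ^ i * (x * y) * x ^ i := by rw [(hcx.pow_right i).eq]; group
              _ = c ^ i * c * y * (x * x ^ i) := by rw [hxy]; group
              _ = c ^ (i + 1) * y * x ^ (i + 1) := by rw [pow_succ c, pow_succ' x]
        have h1 : c ^ Q = 1 := by
          have h := hconj Q
          rw [← hcentral _ (hpow x hx) y, mul_assoc] at h
          exact (mul_right_cancel ((one_mul (y * x ^ Q)).trans h)).symm
        have h2 : c ^ (r ^ k) = 1 := by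
          rw [← hMk]
          exact congrArg Subtype.val (pow_card_eq_one' (x := (⟨c, hcM⟩ : M)))
        have hc1 : c = 1 := by
          have := pow_gcd_eq_one.2 ⟨h2, h1⟩
          rwa [hcop.gcd_eq_one, pow_one] at this
        rw [hc, mul_inv_eq_one, mul_inv_eq_iff_eq_mul] at hc1
        exact hc1
      let f : H →* G :=
        { toFun := fun x => (x : G) ^ (r ^ k)
          map_one' := by simp
          map_mul' := fun x y => by
            rw [Subgroup.coe_mul]
            exact Commute.mul_pow (hcomm _ x.2 _ y.2) _ }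
      have hfH : ∀ x : H, f x ∈ H := fun x => pow_mem x.2 _
      refine ⟨f.range, ⟨?_⟩, Or.inr ⟨⟨⟨?_⟩⟩, ?_⟩⟩
      · rintro _ ⟨x, rfl⟩ g
        exact ⟨⟨g * x * g⁻¹, hHn.conj_mem _ x.2 g⟩, by
          show (g * (x : G) * g⁻¹) ^ (r ^ k) = g * (x : G) ^ (r ^ k) * g⁻¹
          rw [conj_pow]⟩
      · rintro ⟨_, x, rfl⟩ ⟨_, y, rfl⟩
        exact Subtype.ext (hcomm _ (hfH x) _ (hfH y))
      · have hker : f.ker = M.subgroupOf H := by
          ext x
          rw [MonoidHom.mem_ker, mem_subgroupOf]
          refine ⟨fun hx => ?_, fun hx => ?_⟩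
          · refine (QuotientGroup.eq_one_iff _).1 ?_
            have e1 : (QuotientGroup.mk (x : G) : G ⧸ M) ^ (r ^ k) = 1 := by
              rw [← QuotientGroup.mk_pow]
              exact (QuotientGroup.eq_one_iff _).2 (show (x : G) ^ (r ^ k) ∈ M from (show (x : G) ^ (r ^ k) = 1 from hx) ▸ one_mem M)
            have e2 : (QuotientGroup.mk (x : G) : G ⧸ M) ^ Q = 1 := by
              rw [← QuotientGroup.mk_pow]
              exact (QuotientGroup.eq_one_iff _).2 (hpow _ x.2)
            have := pow_gcd_eq_one.2 ⟨e1, e2⟩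
            rwa [hcop.gcd_eq_one, pow_one] at this
          · show (x : G) ^ (r ^ k) = 1
            rw [← hMk]
            exact congrArg Subtype.val (pow_card_eq_one' (x := (⟨x, hx⟩ : M)))
        have h := f.ker.card_mul_index
        rw [Subgroup.index_ker, hker, Nat.card_congr (subgroupOfEquivOfLe hMH).toEquiv, hMk, hHc, hAQ] at h
        exact Nat.eq_of_mul_eq_mul_left (pow_pos hr.pos k) h
    · have hpC : p ∣ Nat.card C := by
        obtain ⟨P⟩ := (inferInstance : Nonempty (Sylow p G))
        have hP : Nat.card (P : Subgroup G) = p := by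
          obtain ⟨m, hm⟩ := hpn
          simpa using CfsgLib.SylowToolkit.card_sylow_subgroup_eq (k := 1) (m := m) (by rw [hm, pow_one])
            (fun h => hg.sq ((mul_dvd_mul_left p h).trans (hm ▸ hdvd))) P
        conv_lhs => rw [← hP]
        refine card_dvd_of_le (le_centralizer_of_normalizes hp hr (Ne.symm hrp) hP hMk
          (fun x _ => by rw [normalizer_eq_top]; trivial) fun j hj hjk => ?_)
        exact hg.not_dvd hr hj ((pow_dvd_pow r hjk).trans hrN) hrQ
      have hlt : Nat.card C < Nat.card G := lt_of_le_of_ne (Subgroup.card_le_card_group C)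
        fun h => hCtop (Subgroup.eq_top_of_card_eq C h)
      have hCd : Nat.card C ∣ N := (Subgroup.card_subgroup_dvd_card C).trans hdvd
      obtain ⟨B, hB, hBcase⟩ := IH _ hlt C rfl inferInstance hCd hpC
      haveI := hB
      refine ⟨B.map C.subtype, normal_map_of_coprime B ?_, ?_⟩
      · refine Nat.coprime_of_dvd fun s hs h1 h2 => ?_
        have h3 := mul_dvd_mul h1 h2
        rw [B.card_mul_index] at h3
        rcases hBcase with e | ⟨-, e⟩ <;> rw [e] at h1
        · rw [(Nat.prime_dvd_prime_iff_eq hs hp).1 h1] at h3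
          exact hg.sq (h3.trans hCd)
        · have : s * Q ∣ Nat.card C := by
            rw [mul_comm, ← B.card_mul_index, e]
            exact mul_dvd_mul_left Q h2
          exact hg.full s hs h1 (this.trans hCd)
      · rcases hBcase with e | ⟨hc, e⟩
        · exact Or.inl (by rw [card_map_of_injective C.subtype_injective, e])
        · refine Or.inr ⟨⟨⟨?_⟩⟩, by rw [card_map_of_injective C.subtype_injective, e]⟩
          rintro ⟨_, x, hx, rfl⟩ ⟨_, y, hy, rfl⟩
          exact Subtype.ext (congrArg (fun b : B => ((b : C) : G)) (hc.is_comm.comm ⟨x, hx⟩ ⟨y, hy⟩))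

end CfsgLib.DegreeOrder
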