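import Cfsg.Agent.DegreeOrder.Normal
import Cfsg.Agent.MinNormal.Structure
import Cfsg.Agent.SylowToolkit.Intersection

/-!
# The non-abelian composition factor of a non-solvable group of small order
-/

set_option autoImplicit false
set_option linter.style.haveILetI false

namespace CfsgLib.DegreeOrder

open Cfsg Subgroup
open scoped Pointwise

universe u

/-- The classification of simple groups of order below 6000, as a hypothesis. -/
def Classified : Prop :=
  ∀ (T : Type u) [Group T] [Finite T] [IsSimpleGroup T], ¬ IsMulCommutative T → Nat.card T < 6000 →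
    Nat.card T ∈ simpleOrders

/-- A group of order below 6000 divisible by none of the simple orders is solvable. -/
theorem isSolvable_of_not_dvd (hcl : Classified.{u}) : ∀ (n : ℕ) (H : Type u) [Group H] [Finite H],
    Nat.card H = n → n < 6000 → (∀ m ∈ simpleOrders, ¬ m ∣ n) → Group.IsSolvable H := by
  intro n
  induction n using Nat.strong_induction_on with
  | _ n IH =>
  intro H _ _ hn hlt hnd
  subst hn
  by_cases hH : Subsingleton H
  · infer_instance
  haveI : Nontrivial H := not_subsingleton_iff_nontrivial.1 hH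
  by_cases hs : IsSimpleGroup H
  · by_cases hc : IsMulCommutative H
    · exact Group.isSolvable_of_comm fun a b => hc.is_comm.comm a b
    · exact absurd dvd_rfl (hnd _ (hcl H hc hlt))
  obtain ⟨K, hKn, hK1, hK2⟩ : ∃ K : Subgroup H, K.Normal ∧ K ≠ ⊥ ∧ K ≠ ⊤ := by
    by_contra hno
    push Not at hno
    exact hs ⟨fun K hK => or_iff_not_imp_left.2 (hno K hK)⟩
  haveI := hKn
  have hlt1 : Nat.card K < Nat.card H := lt_of_le_of_ne (Subgroup.card_le_card_group K)
    fun h => hK2 (Subgroup.eq_top_of_card_eq K h)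
  have hlt2 := CfsgLib.Solvable.card_quotient_lt K hK1
  have hd1 := Subgroup.card_subgroup_dvd_card K
  have hd2 : Nat.card (H ⧸ K) ∣ Nat.card H := K.index_dvd_card
  haveI h1 : Group.IsSolvable K := IH _ hlt1 K rfl (hlt1.trans hlt) fun m hm h => hnd m hm (h.trans hd1)
  haveI h2 : Group.IsSolvable (H ⧸ K) :=
    IH _ hlt2 (H ⧸ K) rfl (hlt2.trans hlt) fun m hm h => hnd m hm (h.trans hd2)
  exact (Group.isSolvable_iff_subgroup_quotient K).2 ⟨h1, h2⟩

variable {G : Type u} [Group G] [Finite G]

theorem exists_dvd_of_not_isSolvable (hcl : Classified.{u}) (hlt : Nat.card G < 6000)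
    (hG : ¬ Group.IsSolvable G) : ∃ m ∈ simpleOrders, m ∣ Nat.card G := by
  by_contra h
  push Not at h
  exact hG (isSolvable_of_not_dvd hcl _ G rfl hlt h)

/-- No product of two simple orders divides `N`. -/
def NoPair (N : ℕ) : Prop := ∀ m ∈ simpleOrders, ∀ m' ∈ simpleOrders, ¬ m * m' ∣ N

theorem card_mul_card_dvd {A B : Subgroup G} [A.Normal] (h : A ⊓ B = ⊥) :
    Nat.card A * Nat.card B ∣ Nat.card G := by
  have h1 : Nat.card ((A : Subgroup G) ⊔ B : Subgroup G) = Nat.card A * Nat.card B := by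
    have hc : Nat.card ↥((A : Set G) * (B : Set G)) = Nat.card A * Nat.card B := by
      refine (Nat.card_congr (Equiv.ofBijective
        (fun a : A × B => (⟨(a.1 : G) * a.2, Set.mul_mem_mul a.1.2 a.2.2⟩ : ↥((A : Set G) * (B : Set G))))
        ⟨fun a b hab => Subgroup.mul_injective_of_disjoint (disjoint_iff.2 h) (congrArg Subtype.val hab),
         fun x => ?_⟩)).symm.trans (Nat.card_prod _ _)
      obtain ⟨a, ha, b, hb, hab⟩ := x.2
      exact ⟨(⟨a, ha⟩, ⟨b, hb⟩), Subtype.ext hab⟩
    rw [← Subgroup.normal_mul A B] at hc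
    exact hc
  exact h1 ▸ Subgroup.card_subgroup_dvd_card _

/-- A non-solvable group has, modulo a solvable normal subgroup, a simple normal subgroup with trivial
centraliser. -/
theorem exists_radical (hcl0 : Classified.{0}) (hcl : Classified.{u}) (hlt : Nat.card G < 6000)
    (hnp : NoPair (Nat.card G)) (hG : ¬ Group.IsSolvable G) :
    ∃ (R : Subgroup G) (_ : R.Normal), Group.IsSolvable R ∧ ∃ M : Subgroup (G ⧸ R), M.Normal ∧ IsSimpleGroup M ∧
      ¬ IsMulCommutative M ∧ centralizer (M : Set (G ⧸ R)) = ⊥ ∧ Nat.card M ∈ simpleOrders := by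
  obtain ⟨R, -, hR⟩ := Finite.exists_le_maximal (p := fun R : Subgroup G => R.Normal ∧ Group.IsSolvable R)
    (a := ⊥) ⟨inferInstance, inferInstance⟩
  obtain ⟨hRn, hRs⟩ := hR.1
  haveI := hRn
  haveI := hRs
  refine ⟨R, hRn, hRs, ?_⟩
  have hq : Nat.card (G ⧸ R) ∣ Nat.card G := R.index_dvd_card
  have hqlt : Nat.card (G ⧸ R) < 6000 := (Nat.le_of_dvd Nat.card_pos hq).trans_lt hlt
  have hnosolv : ∀ K : Subgroup (G ⧸ R), K.Normal → Group.IsSolvable K → K = ⊥ := by
    intro K hK hKs
    set K' := K.comap (QuotientGroup.mk' R) with hK'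
    haveI : K'.Normal := inferInstance
    have hle : R ≤ K' := fun x hx => by
      rw [hK', mem_comap, show (QuotientGroup.mk' R x) = 1 from (QuotientGroup.eq_one_iff x).2 hx]
      exact one_mem K
    have hs : Group.IsSolvable K' := by
      let φ : K' →* K :=
        { toFun := fun x => ⟨QuotientGroup.mk' R (x : G), x.2⟩
          map_one' := Subtype.ext (map_one _)
          map_mul' := fun x y => Subtype.ext (map_mul _ _ _) }
      haveI := hKs
      refine Group.isSolvable_of_ker_le_range (Subgroup.inclusion hle) φ fun x hx => ?_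
      have : QuotientGroup.mk' R (x : G) = 1 := congrArg Subtype.val hx
      exact ⟨⟨x, (QuotientGroup.eq_one_iff _).1 this⟩, rfl⟩
    have he : K' = R := le_antisymm (hR.2 ⟨inferInstance, hs⟩ hle) hle
    have : K = (K').map (QuotientGroup.mk' R) :=
      (map_comap_eq_self_of_surjective (QuotientGroup.mk'_surjective R) K).symm
    rw [this, he, Subgroup.map_eq_bot_iff, QuotientGroup.ker_mk']
  haveI : Nontrivial (G ⧸ R) := by
    refine not_subsingleton_iff_nontrivial.1 fun h => hG ?_
    exact (Group.isSolvable_iff_subgroup_quotient R).2 ⟨hRs, inferInstance⟩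
  obtain ⟨M, -, hMn, hM, hmin⟩ :=
    CfsgLib.Solvable.exists_minimal_normal_le (⊤ : Subgroup (G ⧸ R)) top_ne_bot
  haveI := hMn
  have hmn : CfsgLib.MinNormal.IsMinNormal M := ⟨hMn, hM, hmin⟩
  obtain ⟨T, _, k, hTs, hk, hTc, ⟨e⟩⟩ := hmn.exists_mulEquiv_pi
  have hMs : ¬ Group.IsSolvable M := fun h => hM (hnosolv M hMn h)
  have hTc' : ¬ IsMulCommutative T := fun h => hMs (Group.isSolvable_of_comm fun a b => (hTc h).is_comm.comm a b)
  haveI : Nonempty (Fin k) := ⟨⟨0, hk⟩⟩
  haveI : Finite T := Finite.of_surjective (fun x : M => e x ⟨0, hk⟩)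
    fun t => ⟨e.symm fun _ => t, by simp⟩
  have hcM : Nat.card M = Nat.card T ^ k := by
    rw [Nat.card_congr e.toEquiv, Nat.card_fun, Nat.card_fin]
  have hMd : Nat.card M ∣ Nat.card G := (Subgroup.card_subgroup_dvd_card M).trans hq
  have hTlt : Nat.card T < 6000 := by
    refine lt_of_le_of_lt ?_ hlt
    refine Nat.le_of_dvd Nat.card_pos ((dvd_pow_self _ hk.ne').trans (hcM ▸ hMd))
  haveI := hTs
  have hTm := hcl0 T hTc' hTlt
  have hk1 : k = 1 := by
    by_contra h
    refine hnp _ hTm _ hTm ((?_ : _ ∣ Nat.card T ^ k).trans (hcM ▸ hMd))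
    rw [← sq]
    exact pow_dvd_pow _ (by omega)
  subst hk1
  rw [pow_one] at hcM
  let e1 : M ≃* T := e.trans (MulEquiv.funUnique (Fin 1) T)
  haveI hMsimple : IsSimpleGroup M := CfsgLib.MinNormal.isSimpleGroup_congr e1.symm hTs
  have hMc : ¬ IsMulCommutative M := fun h => hMs (Group.isSolvable_of_comm fun a b => h.is_comm.comm a b)
  refine ⟨M, hMn, hMsimple, hMc, ?_, hcM ▸ hTm⟩
  set C := centralizer (M : Set (G ⧸ R))
  haveI : C.Normal := inferInstance
  by_contra hC
  have hCs : ¬ Group.IsSolvable C := fun h => hC (hnosolv C inferInstance h)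
  obtain ⟨m', hm', hd'⟩ := exists_dvd_of_not_isSolvable hcl
    ((Subgroup.card_le_card_group C).trans_lt hqlt) hCs
  have hinf : M ⊓ C = ⊥ := by
    rcases (Subgroup.Normal.subgroupOf (inferInstance : C.Normal) M).eq_bot_or_eq_top with h | h
    · rw [inf_comm, ← disjoint_iff]
      exact subgroupOf_eq_bot.1 h
    · refine absurd ⟨⟨fun a b => Subtype.ext ?_⟩⟩ hMc
      exact (mem_centralizer_iff.1 (subgroupOf_eq_top.1 h b.2) a a.2)
  exact hnp _ (hcM ▸ hTm) m' hm' ((mul_dvd_mul_left _ hd').trans ((card_mul_card_dvd hinf).trans hq))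

/-- The action data of a simple order: a prime, its exponent, and the cofactor. -/
def actData : ℕ → ℕ × ℕ × ℕ
  | 60 => (5, 1, 12)
  | 168 => (7, 1, 24)
  | 360 => (3, 2, 40)
  | 504 => (3, 2, 56)
  | _ => (2, 0, 0)

/-- An element of order `p` normalising a simple group of order `m` must centralise it. -/
def actCheck (m p : ℕ) : Bool :=
  match actData m with
  | (r, k, m') => decide (0 < k ∧ m = r ^ k * m' ∧ m' % r ≠ 0 ∧ m' % p ≠ 0 ∧ r ≠ p ∧ (r = 3 ∨ r = 5 ∨ r = 7)) &&
    ((List.range (k + 1)).all fun j => decide (j = 0 ∨ r ^ j % p ≠ 1)) &&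
    ((List.range (m' + 1)).all fun n => decide (m' % n ≠ 0 ∨ n % r ≠ 1) ||
      (List.range (n + 1)).all fun c => decide (m' % c ≠ 0 ∨ c % r ≠ 1 ∨ c % p ≠ n % p ∨ c = n))

/-- Conjugation on a normal subgroup, restricted to a subgroup, as an action on its Sylow subgroups. -/
theorem le_centralizer_of_actCheck {p : ℕ} [hp : Fact p.Prime] {P M : Subgroup G} [M.Normal]
    [IsSimpleGroup M] (hP : Nat.card P = p) {m : ℕ}
    (hm : Nat.card M = m) (hchk : actCheck m p = true) : P ≤ centralizer (M : Set G) := by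
  unfold actCheck at hchk
  generalize hd : actData m = d at hchk
  obtain ⟨r, k, m'⟩ := d
  simp only [Bool.and_eq_true, decide_eq_true_eq, List.all_eq_true, List.mem_range, Bool.or_eq_true] at hchk
  obtain ⟨⟨⟨hk, hmeq, hrm, hpm, hrp, hr3⟩, hpow⟩, hcnt⟩ := hchk
  have hr : r.Prime := by rcases hr3 with rfl | rfl | rfl <;> norm_num
  haveI := Fact.mk hr
  have hMcard : Nat.card M = r ^ k * m' := hm.trans hmeq
  have hrm' : ¬ r ∣ m' := fun h => hrm (Nat.mod_eq_zero_of_dvd h)
  have hm'0 : 0 < m' := Nat.pos_of_ne_zero fun h => hrm' (h ▸ dvd_zero r)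
  let φ : P →* MulAut M := MulAut.conjNormal.comp P.subtype
  letI : MulDistribMulAction P M := MulDistribMulAction.compHom M φ
  have hPp : IsPGroup p P := IsPGroup.of_card (n := 1) (by rw [hP, pow_one])
  set D := (centralizer (P : Set G)).subgroupOf M with hD
  -- a fixed Sylow subgroup is centralised
  have hfix : ∀ S : Sylow r M, S ∈ MulAction.fixedPoints P (Sylow r M) → (S : Subgroup M) ≤ D := by
    intro S hS
    set S' := (S : Subgroup M).map M.subtype
    have hS' : Nat.card S' = r ^ k := by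
      rw [card_map_of_injective M.subtype_injective]
      exact CfsgLib.SylowToolkit.card_sylow_subgroup_eq hMcard hrm' S
    have hnorm : P ≤ normalizer (S' : Set G) := by
      intro y hy
      have h : ∀ q : P, ∀ x : M, x ∈ (S : Subgroup M) → φ q x ∈ (S : Subgroup M) := fun q x hx => by
        have e : q • S = S := hS q
        rw [← e, Sylow.pointwise_smul_def]
        exact ⟨x, hx, rfl⟩
      rw [mem_normalizer_iff]
      intro g
      constructor
      · rintro ⟨x, hx, rfl⟩
        exact ⟨_, h ⟨y, hy⟩ x hx, MulAut.conjNormal_apply (H := M) y x⟩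
      · rintro ⟨x, hx, hxe⟩
        refine ⟨_, h ⟨y⁻¹, inv_mem hy⟩ x hx, (MulAut.conjNormal_apply (H := M) y⁻¹ x).trans ?_⟩
        show y⁻¹ * (x : G) * y⁻¹⁻¹ = g
        rw [show (x : G) = y * g * y⁻¹ from hxe]
        group
    intro x hx
    rw [hD, mem_subgroupOf, mem_centralizer_iff]
    intro y hy
    exact (mem_centralizer_iff.1
      (le_centralizer_of_normalizes hp.out hr (Ne.symm hrp) hP hS' hnorm
        (fun j hj hjk => (hpow j (Nat.lt_succ_of_le hjk)).resolve_left hj.ne') hy) (x : G) ⟨x, hx, rfl⟩).symm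
  have hfix' : ∀ S : Sylow r M, (S : Subgroup M) ≤ D → S ∈ MulAction.fixedPoints P (Sylow r M) := by
    intro S hS q
    apply Sylow.ext
    rw [Sylow.pointwise_smul_def]
    have hid : ∀ x ∈ (S : Subgroup M), φ q x = x := fun x hx => Subtype.ext <| by
      show (MulAut.conjNormal (q : G) x : G) = x
      have h1 : (q : G) * (x : G) = (x : G) * q := mem_centralizer_iff.1 (mem_subgroupOf.1 (hS hx)) (q : G) q.2
      rw [MulAut.conjNormal_apply, h1, mul_inv_cancel_right]
    ext x
    constructor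
    · rintro ⟨y, hy, rfl⟩
      show φ q y ∈ (S : Subgroup M)
      rw [hid y hy]
      exact hy
    · intro hx
      exact ⟨x, hx, hid x hx⟩
  obtain ⟨S₀⟩ := (inferInstance : Nonempty (Sylow r M))
  have hn : Nat.card (Sylow r M) ∣ m' := CfsgLib.SylowToolkit.card_sylow_dvd hMcard hrm'
  have hn1 : Nat.card (Sylow r M) % r = 1 := CfsgLib.SylowToolkit.card_sylow_mod
  have hmod := hPp.card_modEq_card_fixedPoints (Sylow r M)
  -- some Sylow subgroup is fixed
  obtain ⟨S₁, hS₁⟩ : ∃ S₁, S₁ ∈ MulAction.fixedPoints P (Sylow r M) := by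
    by_contra hno
    push Not at hno
    haveI : IsEmpty (MulAction.fixedPoints P (Sylow r M)) := ⟨fun S => hno S.1 S.2⟩
    rw [Nat.card_of_isEmpty (α := MulAction.fixedPoints P (Sylow r M))] at hmod
    exact hpm (Nat.mod_eq_zero_of_dvd ((Nat.modEq_zero_iff_dvd.1 hmod).trans hn))
  have hS₁D := hfix S₁ hS₁
  obtain ⟨t, ht⟩ : r ^ k ∣ Nat.card D :=
    CfsgLib.SylowToolkit.card_sylow_subgroup_eq hMcard hrm' S₁ ▸ card_dvd_of_le hS₁D
  have htm : t ∣ m' := Nat.dvd_of_mul_dvd_mul_left (pow_pos hr.pos k)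
    (ht ▸ hMcard ▸ Subgroup.card_subgroup_dvd_card D)
  have hrt : ¬ r ∣ t := fun h => hrm' (h.trans htm)
  have hcard : ∀ S : Sylow r D, Nat.card ((S : Subgroup D).map D.subtype) = r ^ ((Nat.card M).factorization r) := by
    intro S
    rw [card_map_of_injective D.subtype_injective, CfsgLib.SylowToolkit.card_sylow_subgroup_eq ht hrt S,
      ← CfsgLib.SylowToolkit.card_sylow_subgroup_eq hMcard hrm' S₀, S₀.card_eq_multiplicity]
  let f : Sylow r D → MulAction.fixedPoints P (Sylow r M) := fun S =>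
    ⟨Sylow.ofCard ((S : Subgroup D).map D.subtype) (hcard S), hfix' _ (map_subtype_le _)⟩
  have hf : Function.Bijective f := by
    refine ⟨fun S T h => Sylow.ext (map_injective D.subtype_injective
      (congrArg (fun x : MulAction.fixedPoints P (Sylow r M) => ((x : Sylow r M) : Subgroup M)) h)), fun S => ?_⟩
    refine ⟨Sylow.ofCard ((S : Subgroup M).subgroupOf D) ?_, Subtype.ext (Sylow.ext ?_)⟩
    · obtain ⟨U⟩ := (inferInstance : Nonempty (Sylow r D))
      rw [Nat.card_congr (subgroupOfEquivOfLe (hfix S S.2)).toEquiv,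
        CfsgLib.SylowToolkit.card_sylow_subgroup_eq hMcard hrm' (S : Sylow r M),
        ← CfsgLib.SylowToolkit.card_sylow_subgroup_eq ht hrt U, U.card_eq_multiplicity]
    · show ((S : Subgroup M).subgroupOf D).map D.subtype = _
      rw [subgroupOf_map_subtype, inf_of_le_left (hfix S S.2)]
  have hc := (Nat.card_eq_of_bijective f hf).symm
  have hc1 : Nat.card (Sylow r D) % r = 1 := CfsgLib.SylowToolkit.card_sylow_mod
  have hcd : Nat.card (Sylow r D) ∣ m' := (CfsgLib.SylowToolkit.card_sylow_dvd ht hrt).trans htm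
  have hle : Nat.card (MulAction.fixedPoints P (Sylow r M)) ≤ Nat.card (Sylow r M) :=
    Nat.card_le_card_of_injective _ Subtype.val_injective
  have heq : Nat.card (MulAction.fixedPoints P (Sylow r M)) = Nat.card (Sylow r M) := by
    rcases hcnt (Nat.card (Sylow r M)) (Nat.lt_succ_of_le (Nat.le_of_dvd hm'0 hn)) with h | h
    · rcases h with h | h
      · exact absurd (Nat.mod_eq_zero_of_dvd hn) h
      · exact absurd hn1 h
    rcases h _ (Nat.lt_succ_of_le hle) with h | h | h | h
    · exact absurd (Nat.mod_eq_zero_of_dvd (hc ▸ hcd)) h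
    · exact absurd (hc ▸ hc1) h
    · exact absurd hmod.symm h
    · exact h
  have hall : ∀ S : Sylow r M, (S : Subgroup M) ≤ D := by
    intro S
    have huniv : MulAction.fixedPoints P (Sylow r M) = Set.univ :=
      Set.eq_of_subset_of_ncard_le (Set.subset_univ _)
        (by rw [Set.ncard_univ, ← Nat.card_coe_set_eq, heq]) Set.finite_univ
    exact hfix S (huniv ▸ Set.mem_univ S)
  -- the Sylow subgroups generate the simple group
  set U := ⨆ S : Sylow r M, (S : Subgroup M) with hU
  have hUn : U.Normal := by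
    rw [← normalizer_eq_top_iff]
    refine eq_top_iff.2 fun g _ => ?_
    rw [mem_normalizer_iff_map_conj_eq]
    apply le_antisymm
    · rw [hU, Subgroup.map_iSup]
      refine iSup_le fun S => le_trans ?_ (le_iSup (fun S : Sylow r M => (S : Subgroup M)) (g • S))
      rw [Sylow.coe_subgroup_smul]
      rfl
    · rw [hU, Subgroup.map_iSup]
      refine iSup_le fun S => le_trans ?_ (le_iSup (fun S : Sylow r M => (S : Subgroup M).map (MulAut.conj g).toMonoidHom) (g⁻¹ • S))
      rintro x hx
      refine ⟨g⁻¹ * x * g, ?_, by simp [mul_assoc]⟩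
      rw [Sylow.coe_subgroup_smul]
      exact ⟨x, hx, by simp [mul_assoc]⟩
  have hUtop : U = ⊤ := by
    refine hUn.eq_bot_or_eq_top.resolve_left fun h => ?_
    have h1 := eq_bot_iff.2 ((le_iSup (fun S : Sylow r M => (S : Subgroup M)) S₀).trans h.le)
    have h2 := CfsgLib.SylowToolkit.card_sylow_subgroup_eq hMcard hrm' S₀
    rw [h1, Subgroup.card_bot] at h2
    exact absurd h2.symm (Nat.one_lt_pow hk.ne' hr.one_lt).ne'
  have hDtop : D = ⊤ := top_le_iff.1 (hUtop ▸ iSup_le hall)
  intro y hy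
  rw [mem_centralizer_iff]
  intro x hx
  exact (mem_centralizer_iff.1 (show x ∈ centralizer (P : Set G) from
    (mem_subgroupOf.1 (hDtop ▸ mem_top (⟨x, hx⟩ : M) : (⟨x, hx⟩ : M) ∈ D))) y hy).symm

/-- If `p` does not divide the simple order, some normal subgroup has order `p` or is abelian of
order `Q`. -/
theorem hasSpecial_of_radical {p Q : ℕ} [hp : Fact p.Prime] (hg : Good (Nat.card G) p Q) (hpd : p ∣ Nat.card G)
    {R : Subgroup G} [R.Normal] (hR : Group.IsSolvable R) {M : Subgroup (G ⧸ R)} [M.Normal] [IsSimpleGroup M]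
    (hC : centralizer (M : Set (G ⧸ R)) = ⊥) (hchk : actCheck (Nat.card M) p = true) :
    HasSpecial p Q G := by
  have hpR : p ∣ Nat.card R := by
    refine (hp.out.dvd_mul.1 (R.card_mul_index.symm ▸ hpd)).resolve_right fun h => ?_
    obtain ⟨y, hy⟩ := exists_prime_orderOf_dvd_card' (G := G ⧸ R) p h
    have hle := le_centralizer_of_actCheck (P := zpowers y) (M := M) (by rw [Nat.card_zpowers, hy]) rfl hchk
    rw [hC, le_bot_iff, zpowers_eq_bot] at hle
    rw [hle, orderOf_one] at hy
    exact hp.out.ne_one hy.symm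
  obtain ⟨A, hA, hcase⟩ := hasSpecial_of_solvable Nat.card_pos.ne' hp.out hg _ R rfl hR
    (Subgroup.card_subgroup_dvd_card R) hpR
  haveI := hA
  have hAR : Nat.card A ∣ Nat.card R := Subgroup.card_subgroup_dvd_card A
  have hRG := Subgroup.card_subgroup_dvd_card R
  refine ⟨A.map R.subtype, normal_map_of_coprime A ?_, ?_⟩
  · refine Nat.coprime_of_dvd fun s hs h1 h2 => ?_
    rcases hcase with e | ⟨-, e⟩ <;> rw [e] at h1
    · rw [(Nat.prime_dvd_prime_iff_eq hs hp.out).1 h1] at h2
      have h3 := mul_dvd_mul_left (Nat.card A) h2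
      rw [A.card_mul_index, e] at h3
      exact hg.sq (h3.trans hRG)
    · have : s * Q ∣ Nat.card R := by
        rw [mul_comm, ← A.card_mul_index, e]
        exact mul_dvd_mul_left Q h2
      exact hg.full s hs h1 (this.trans hRG)
  · rcases hcase with e | ⟨hc, e⟩
    · exact Or.inl (by rw [card_map_of_injective R.subtype_injective, e])
    · refine Or.inr ⟨⟨⟨?_⟩⟩, by rw [card_map_of_injective R.subtype_injective, e]⟩
      rintro ⟨_, x, hx, rfl⟩ ⟨_, y, hy, rfl⟩
      exact Subtype.ext (congrArg (fun b : A => ((b : R) : G)) (hc.is_comm.comm ⟨x, hx⟩ ⟨y, hy⟩))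

/-- The exceptional alternative kills `p` or `q` as a degree prime. -/
theorem false_of_hasSpecial {p q Q : ℕ} (hp : p.Prime) (hq : q.Prime) (hg : Good (Nat.card G) p Q)
    (hqQ : q ∣ Q) (hpπ : p ∈ degreePrimes G) (hqπ : q ∈ degreePrimes G)
    (h : HasSpecial p Q G) : False := by
  obtain ⟨A, hA, e | ⟨hc, e⟩⟩ := h
  · haveI := hA
    haveI := isMulCommutative_of_card_prime hp e
    refine not_mem_degreePrimes (A := A) (fun h => hg.sq ?_) hpπ
    have := mul_dvd_mul_left (Nat.card A) h
    rwa [A.card_mul_index, e] at this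
  · haveI := hA
    haveI := hc
    refine not_mem_degreePrimes (A := A) (fun h => hg.full q hq hqQ ?_) hqπ
    rw [mul_comm, ← A.card_mul_index, e]
    exact mul_dvd_mul_left Q h

end CfsgLib.DegreeOrder
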