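import Cfsg.Agent.DegreeOrder.Radical
import Cfsg.Agent.S0494
import Cfsg.Agent.Frobenius57.DegreeSixty
import Cfsg.Agent.Chars.Basic.Restrict
import Cfsg.Agent.Dickson.Sixty

/-!
# Degrees of non-solvable groups with a composition factor of order 60
-/

set_option autoImplicit false
set_option linter.style.haveILetI false

namespace CfsgLib.DegreeOrder

open Cfsg CfsgLib.Chars Subgroup
open scoped Pointwise

universe u

theorem commutator_eq_top_of_simple {M : Type u} [Group M] [IsSimpleGroup M] (hc : ¬ IsMulCommutative M) :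
    commutator M = ⊤ := by
  refine (inferInstance : (commutator M).Normal).eq_bot_or_eq_top.resolve_left fun h => hc ?_
  rw [commutator_def, Subgroup.commutator_eq_bot_iff_le_centralizer] at h
  exact ⟨⟨fun a b => mem_centralizer_iff.1 (h (mem_top b)) a (mem_top a)⟩⟩

theorem isSimpleGroup_alt_five : IsSimpleGroup (alternatingGroup (Fin 5)) :=
  alternatingGroup.isSimpleGroup (by rw [Nat.card_fin])

theorem not_comm_alt_five : ¬ IsMulCommutative (alternatingGroup (Fin 5)) := fun h =>
  absurd (fun a b => h.is_comm.comm a b) (by decide +kernel :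
    ¬ ∀ a b : alternatingGroup (Fin 5), a * b = b * a)

theorem card_alt_five : Nat.card (alternatingGroup (Fin 5)) = 60 := by
  rw [nat_card_alternatingGroup, Nat.card_fin]; decide

/-- The degrees of the alternating group of degree five: none is two, and one is three. -/
theorem alt_five_degrees :
    (∀ χ : IrrCharacter (alternatingGroup (Fin 5)), charDegree (χ : alternatingGroup (Fin 5) → ℂ) ≠ 2) ∧
      ∃ χ : IrrCharacter (alternatingGroup (Fin 5)), charDegree (χ : alternatingGroup (Fin 5) → ℂ) = 3 := by
  classical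
  haveI := isSimpleGroup_alt_five
  set A := alternatingGroup (Fin 5)
  let D : ℕ → Finset (IrrCharacter A) := fun d => Finset.univ.filter fun χ => charDegree (χ : A → ℂ) = d
  have hD1 : (D 1).card = 1 := by
    have h1 := card_charDegree_eq_one (G := A)
    rw [commutator_eq_top_of_simple not_comm_alt_five, Subgroup.index_top, Nat.card_eq_fintype_card] at h1
    exact ((Fintype.card_subtype (fun χ : IrrCharacter A => charDegree (χ : A → ℂ) = 1)).symm).trans h1
  have hmaps : ∀ χ : IrrCharacter A, χ ∈ (Finset.univ : Finset _) →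
      charDegree (χ : A → ℂ) ∈ ({1, 2, 3, 4, 5, 6} : Finset ℕ) :=
    fun χ _ => CfsgLib.DegreeSixty.charDegree_mem_of_card_sixty card_alt_five χ
  have hsum : ∑ d ∈ ({1, 2, 3, 4, 5, 6} : Finset ℕ), d ^ 2 * (D d).card = 60 := by
    rw [← card_alt_five, ← sum_charDegree_sq (G := A), ← Finset.sum_fiberwise_of_maps_to hmaps]
    refine Finset.sum_congr rfl fun d _ => ?_
    rw [Finset.sum_congr rfl (fun χ hχ => by rw [(Finset.mem_filter.mp hχ).2]),
      Finset.sum_const, smul_eq_mul, mul_comm]
  have hcount : ∑ d ∈ ({1, 2, 3, 4, 5, 6} : Finset ℕ), (D d).card = 5 := by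
    rw [← Finset.card_eq_sum_card_fiberwise hmaps, Finset.card_univ, ← Nat.card_eq_fintype_card,
      card_irrCharacter, CfsgLib.DegreeSixty.card_conjClasses_alt_five]
  simp only [Finset.sum_insert, Finset.mem_insert, Finset.mem_singleton, Finset.sum_singleton,
    OfNat.one_ne_ofNat, or_self, not_false_iff] at hsum hcount
  norm_num [hD1] at hsum hcount
  have hsol : (D 2).card = 0 ∧ 0 < (D 3).card := by
    have b6 : (D 6).card ≤ 1 := by omega
    have b5 : (D 5).card ≤ 2 := by omega
    have b4 : (D 4).card ≤ 3 := by omega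
    interval_cases (D 6).card <;> interval_cases (D 5).card <;> interval_cases (D 4).card <;> omega
  refine ⟨fun χ e => ?_, ?_⟩
  · exact Finset.eq_empty_iff_forall_notMem.mp (Finset.card_eq_zero.mp hsol.1) χ
      (Finset.mem_filter.mpr ⟨Finset.mem_univ _, e⟩)
  · obtain ⟨χ, hχ⟩ := Finset.card_pos.mp hsol.2
    exact ⟨χ, (Finset.mem_filter.mp hχ).2⟩

theorem sixty_degrees {M : Type u} [Group M] [Finite M] [IsSimpleGroup M] (h : Nat.card M = 60) :
    (∀ χ : IrrCharacter M, charDegree (χ : M → ℂ) ≠ 2) ∧ ∃ χ : IrrCharacter M, charDegree (χ : M → ℂ) = 3 := by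
  obtain ⟨e⟩ := Cfsg.Agent.S0494.result h
  obtain ⟨h2, χ, h3⟩ := alt_five_degrees
  refine ⟨fun ψ hψ => h2 (irrEquiv e ψ) ?_, (irrEquiv e).symm χ, ?_⟩
  · rw [charDegree_irrEquiv]; exact hψ
  · rw [← h3, ← charDegree_irrEquiv e, Equiv.apply_symm_apply]

/-- The conditions on a pair of generators of the alternating group of degree five. -/
def PairCond (p : alternatingGroup (Fin 5) × alternatingGroup (Fin 5)) : Prop :=
  p.1 ^ 5 = 1 ∧ p.1 ≠ 1 ∧ p.2 ^ 3 = 1 ∧ p.2 ≠ 1 ∧ (p.1 * p.2) ^ 2 = 1

instance : DecidablePred PairCond := fun p => by unfold PairCond; infer_instance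

theorem card_pairs_le : Fintype.card {p // PairCond p} ≤ 120 := by decide +kernel

theorem exists_pair : ∃ a b : alternatingGroup (Fin 5), PairCond (a, b) := by decide +kernel

theorem closure_pair_eq_top {a b : alternatingGroup (Fin 5)} (h : PairCond (a, b)) :
    closure {a, b} = ⊤ := by
  obtain ⟨h5, ha, h3, hb, h2⟩ := h
  set H := closure {a, b}
  haveI : Fact (Nat.Prime 5) := ⟨by norm_num⟩
  haveI : Fact (Nat.Prime 3) := ⟨by norm_num⟩
  haveI : Fact (Nat.Prime 2) := ⟨Nat.prime_two⟩
  have oa : orderOf a = 5 := orderOf_eq_prime h5 ha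
  have ob : orderOf b = 3 := orderOf_eq_prime h3 hb
  have hab : a * b ≠ 1 := fun e => by
    have : orderOf a = orderOf b := by rw [eq_inv_of_mul_eq_one_left e, orderOf_inv]
    omega
  have oab : orderOf (a * b) = 2 := orderOf_eq_prime h2 hab
  have haH : a ∈ H := subset_closure (by simp)
  have hbH : b ∈ H := subset_closure (by simp)
  have d5 : 5 ∣ Nat.card H := oa.symm.dvd.trans (Subgroup.orderOf_dvd_natCard H haH)
  have d3 : 3 ∣ Nat.card H := ob.symm.dvd.trans (Subgroup.orderOf_dvd_natCard H hbH)
  have d2 : 2 ∣ Nat.card H := oab.symm.dvd.trans (Subgroup.orderOf_dvd_natCard H (mul_mem haH hbH))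
  have hidx := H.card_mul_index
  rw [card_alt_five] at hidx
  have d30 : 30 ∣ Nat.card H := by omega
  obtain ⟨j, hj⟩ := d30
  have hi : j * H.index = 2 := by rw [hj, mul_assoc] at hidx; omega
  rcases (Nat.dvd_prime Nat.prime_two).1 (Dvd.intro_left j hi) with e | e
  · exact index_eq_one.1 e
  · exfalso
    haveI := Subgroup.normal_of_index_eq_two e
    haveI := isSimpleGroup_alt_five
    rcases (inferInstance : H.Normal).eq_bot_or_eq_top with h' | h'
    · rw [h', index_bot, card_alt_five] at e; omega
    · rw [h', index_top] at e; omega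

theorem card_le_of_injective {Q : Type u} [Group Q] (φ : Q →* MulAut (alternatingGroup (Fin 5)))
    (hφ : Function.Injective φ) : Finite Q ∧ Nat.card Q ≤ 120 := by
  obtain ⟨a, b, hab⟩ := exists_pair
  obtain ⟨h5, ha, h3, hb, h2⟩ := hab
  let f : Q → {p // PairCond p} := fun q => ⟨(φ q a, φ q b),
    by rw [← map_pow, h5, map_one], fun e => ha ((φ q).injective (e.trans (map_one _).symm)),
    by rw [← map_pow, h3, map_one], fun e => hb ((φ q).injective (e.trans (map_one _).symm)),
    by rw [← map_mul, ← map_pow, h2, map_one]⟩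
  have hf : Function.Injective f := fun q q' h => by
    have h' := congrArg Subtype.val h
    simp only [f, Prod.mk.injEq] at h'
    refine hφ (MulEquiv.ext fun x => ?_)
    have hle : closure {a, b} ≤ (φ q).toMonoidHom.eqLocus (φ q').toMonoidHom :=
      (closure_le _).2 (by rintro _ (rfl | rfl); exacts [h'.1, h'.2])
    rw [closure_pair_eq_top ⟨h5, ha, h3, hb, h2⟩] at hle
    exact hle (mem_top x)
  exact ⟨Finite.of_injective f hf,
    (Nat.card_le_card_of_injective f hf).trans (Nat.card_eq_fintype_card.trans_le card_pairs_le)⟩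

variable {Q : Type u} [Group Q] [Finite Q]

theorem exists_injective_mulAut {M : Subgroup Q} [M.Normal] [IsSimpleGroup M] (hM : Nat.card M = 60)
    (hC : centralizer (M : Set Q) = ⊥) :
    ∃ φ : Q →* MulAut (alternatingGroup (Fin 5)), Function.Injective φ := by
  obtain ⟨e⟩ := Cfsg.Agent.S0494.result hM
  refine ⟨(MulAut.congr e).toMonoidHom.comp MulAut.conjNormal,
    (MulAut.congr e).injective.comp ?_⟩
  rw [← MonoidHom.ker_eq_bot_iff, eq_bot_iff]
  intro q hq
  rw [← hC, mem_centralizer_iff]
  intro x hx
  have := congrArg Subtype.val (DFunLike.congr_fun (show MulAut.conjNormal q = (1 : MulAut M) from hq) ⟨x, hx⟩)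
  rw [MulAut.conjNormal_apply] at this
  exact (mul_inv_eq_iff_eq_mul.1 this).symm

theorem card_le_120 {M : Subgroup Q} [M.Normal] [IsSimpleGroup M] (hM : Nat.card M = 60)
    (hC : centralizer (M : Set Q) = ⊥) : Nat.card Q ≤ 120 := by
  obtain ⟨φ, hφ⟩ := exists_injective_mulAut hM hC
  exact (card_le_of_injective φ hφ).2

theorem card_conjClasses_perm_five : Nat.card (ConjClasses (Equiv.Perm (Fin 5))) = 7 := by
  rw [Nat.card_eq_fintype_card]
  decide +kernel

theorem centralizer_pair_trivial : ∀ a b : alternatingGroup (Fin 5), PairCond (a, b) →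
    ∀ σ : Equiv.Perm (Fin 5), σ * a = a * σ → σ * b = b * σ → σ = 1 := by decide +kernel

/-- An almost simple group of order 120 has seven classes. -/
theorem card_irr_120 {M : Subgroup Q} [M.Normal] [IsSimpleGroup M] (hM : Nat.card M = 60)
    (hC : centralizer (M : Set Q) = ⊥) (hQ : Nat.card Q = 120) : Nat.card (IrrCharacter Q) = 7 := by
  obtain ⟨φ, hφ⟩ := exists_injective_mulAut hM hC
  obtain ⟨hfin, hle⟩ := card_le_of_injective (MonoidHom.id (MulAut (alternatingGroup (Fin 5)))) fun _ _ h => h
  haveI := hfin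
  let ψ : Equiv.Perm (Fin 5) →* MulAut (alternatingGroup (Fin 5)) := MulAut.conjNormal
  have hψ : Function.Injective ψ := by
    obtain ⟨a, b, hab⟩ := exists_pair
    rw [← MonoidHom.ker_eq_bot_iff, eq_bot_iff]
    intro σ hσ
    have key : ∀ x : alternatingGroup (Fin 5), σ * x = x * σ := fun x => by
      have := congrArg Subtype.val (DFunLike.congr_fun (show ψ σ = 1 from hσ) x)
      rw [MulAut.conjNormal_apply] at this
      exact mul_inv_eq_iff_eq_mul.1 this
    exact Subgroup.mem_bot.2 (centralizer_pair_trivial a b hab σ (key a) (key b))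
  have hP : Nat.card (Equiv.Perm (Fin 5)) = 120 := by rw [Nat.card_perm, Nat.card_fin]; rfl
  have hA : Nat.card (MulAut (alternatingGroup (Fin 5))) = 120 :=
    le_antisymm hle (hP ▸ Nat.card_le_card_of_injective ψ hψ)
  let e1 := MulEquiv.ofBijective ψ
    (hψ.bijective_of_nat_card_le (by rw [hA, hP]))
  let e2 := MulEquiv.ofBijective φ
    (hφ.bijective_of_nat_card_le (by rw [hA, hQ]))
  rw [Nat.card_congr (irrEquiv (e2.trans e1.symm)), card_irrCharacter, card_conjClasses_perm_five]

/-- An almost simple group of order 120 has a character of degree six. -/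
theorem exists_degree_six {M : Subgroup Q} [M.Normal] [IsSimpleGroup M] (hM : Nat.card M = 60)
    (hC : centralizer (M : Set Q) = ⊥) (hQ : Nat.card Q = 120) :
    ∃ χ : IrrCharacter Q, charDegree (χ : Q → ℂ) = 6 := by
  classical
  haveI := Fintype.ofFinite Q
  haveI := Fintype.ofFinite M
  have hk := card_irr_120 hM hC hQ
  have hMc : ¬ IsMulCommutative M := fun h => by
    obtain ⟨e⟩ := Cfsg.Agent.S0494.result hM
    exact not_comm_alt_five ⟨⟨fun a b => e.symm.injective (by rw [map_mul, map_mul]; exact h.is_comm.comm _ _)⟩⟩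
  have hMi : M.index = 2 := by
    have := M.card_mul_index
    rw [hM, hQ] at this
    omega
  have hle : M ≤ commutator Q := by
    have h := commutator_eq_top_of_simple hMc
    have h2 := congrArg (Subgroup.map M.subtype) h
    rw [commutator_def, Subgroup.map_commutator, ← MonoidHom.range_eq_map, range_subtype] at h2
    rw [commutator_def]
    exact h2 ▸ Subgroup.commutator_mono le_top le_top
  by_contra hno
  push Not at hno
  let D : ℕ → Finset (IrrCharacter Q) := fun d => Finset.univ.filter fun χ => charDegree (χ : Q → ℂ) = d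
  have hD1 : (D 1).card ≤ 2 := by
    have h1 := card_charDegree_eq_one (G := Q)
    rw [Nat.card_eq_fintype_card] at h1
    rw [show (D 1).card = (commutator Q).index from
      ((Fintype.card_subtype (fun χ : IrrCharacter Q => charDegree (χ : Q → ℂ) = 1)).symm).trans h1, ← hMi]
    exact Nat.le_of_dvd (by rw [hMi]; norm_num) (Subgroup.index_dvd_of_le hle)
  have hD2 : (D 2).card = 0 := by
    rw [Finset.card_eq_zero, Finset.eq_empty_iff_forall_notMem]
    intro χ hχ
    have hd : charDegree (χ : Q → ℂ) = 2 := (Finset.mem_filter.mp hχ).2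
    obtain ⟨c, -, hres, hsum⟩ := exists_restrict_coeff χ M
    have h2 := (sixty_degrees hM).1
    have hlin : ∀ θ : IrrCharacter M, c θ ≠ 0 → charDegree (θ : M → ℂ) = 1 := by
      intro θ hθ
      have h := Finset.single_le_sum (f := fun θ : IrrCharacter M => c θ * charDegree (θ : M → ℂ))
        (fun _ _ => Nat.zero_le _) (Finset.mem_univ θ)
      rw [← hsum, hd] at h
      have hle' : charDegree (θ : M → ℂ) ≤ 2 := le_trans (Nat.le_mul_of_pos_left _ (Nat.pos_of_ne_zero hθ)) h
      have := charDegree_pos θ
      have := h2 θ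
      omega
    have hker : M ≤ charKer (χ : Q → ℂ) := by
      rw [le_charKer_iff (isCharacter_coe χ)]
      intro x hx
      have h1 := congrFun hres ⟨x, hx⟩
      have h1' := congrFun hres 1
      simp only [Finset.sum_apply, Pi.smul_apply, smul_eq_mul, OneMemClass.coe_one] at h1 h1'
      rw [h1, h1']
      refine Finset.sum_congr rfl fun θ _ => ?_
      by_cases hθ : c θ = 0
      · simp [hθ]
      congr 1
      obtain ⟨l, hl⟩ := exists_monoidHom_of_map_one_eq_one (isCharacter_coe θ)
        ((charDegree_eq_one_iff θ).1 (hlin θ hθ))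
      rw [hl, hl, show l = 1 from ?_]
      · simp
      · refine MonoidHom.ext fun y => ?_
        have hy : y ∈ l.ker := by
          have hc : commutator M ≤ l.ker := Abelianization.commutator_subset_ker l
          rw [commutator_eq_top_of_simple hMc] at hc
          exact hc (mem_top y)
        exact hy
    have h4 := Finset.single_le_sum (f := fun χ : IrrCharacter Q => charDegree (χ : Q → ℂ) ^ 2)
      (fun _ _ => Nat.zero_le _)
      (Finset.mem_filter.mpr ⟨Finset.mem_univ χ, hker⟩ : χ ∈ Finset.univ.filter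
        (fun χ : IrrCharacter Q => M ≤ charKer (χ : Q → ℂ)))
    rw [sum_charDegree_sq_of_le_charKer M, hMi, hd] at h4
    omega
  have hmaps : ∀ χ : IrrCharacter Q, χ ∈ (Finset.univ : Finset _) →
      charDegree (χ : Q → ℂ) ∈ ({1, 2, 3, 4, 5, 8, 10} : Finset ℕ) := fun χ _ => by
    have h1 := charDegree_dvd_card χ
    have h2 := charDegree_sq_le χ
    rw [hQ] at h1 h2
    have h3 : charDegree (χ : Q → ℂ) ≤ 10 := by nlinarith
    have h6 := hno χ
    generalize charDegree (χ : Q → ℂ) = d at h1 h2 h3 h6 ⊢
    interval_cases d <;> simp_all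
  have hsum : ∑ d ∈ ({1, 2, 3, 4, 5, 8, 10} : Finset ℕ), d ^ 2 * (D d).card = 120 := by
    rw [← hQ, ← sum_charDegree_sq (G := Q), ← Finset.sum_fiberwise_of_maps_to hmaps]
    refine Finset.sum_congr rfl fun d _ => ?_
    rw [Finset.sum_congr rfl (fun χ hχ => by rw [(Finset.mem_filter.mp hχ).2]),
      Finset.sum_const, smul_eq_mul, mul_comm]
  have hcount : ∑ d ∈ ({1, 2, 3, 4, 5, 8, 10} : Finset ℕ), (D d).card = 7 := by
    rw [← Finset.card_eq_sum_card_fiberwise hmaps, Finset.card_univ, ← Nat.card_eq_fintype_card, hk]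
  simp only [Finset.sum_insert, Finset.mem_insert, Finset.mem_singleton, Finset.sum_singleton,
    OfNat.one_ne_ofNat, or_self, not_false_iff] at hsum hcount
  norm_num at hsum hcount
  have b10 : (D 10).card ≤ 1 := by omega
  have b8 : (D 8).card ≤ 1 := by omega
  have b5 : (D 5).card ≤ 4 := by omega
  interval_cases (D 10).card <;> interval_cases (D 8).card <;> interval_cases (D 5).card <;> omega

/-- A non-commutative group of order six has a character of degree two. -/
theorem exists_degree_two {T : Type u} [Group T] [Finite T] (h : Nat.card T = 6) (hT : ¬ IsMulCommutative T) :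
    ∃ χ : IrrCharacter T, charDegree (χ : T → ℂ) = 2 := by
  classical
  haveI := Fintype.ofFinite T
  by_contra hno
  push Not at hno
  have hall : ∀ χ : IrrCharacter T, charDegree (χ : T → ℂ) = 1 := fun χ => by
    have h1 := charDegree_dvd_card χ
    have h2 := charDegree_sq_le χ
    rw [h] at h1 h2
    have h3 : charDegree (χ : T → ℂ) ≤ 2 := by nlinarith
    have h4 := charDegree_pos χ
    have h5 := hno χ
    omega
  have hs := sum_charDegree_sq (G := T)
  rw [Finset.sum_congr rfl (fun χ _ => by rw [hall χ, one_pow]), Finset.sum_const, smul_eq_mul, mul_one,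
    Finset.card_univ, ← Nat.card_eq_fintype_card] at hs
  have h1 := card_charDegree_eq_one (G := T)
  rw [Nat.card_congr (Equiv.subtypeUnivEquiv hall), hs] at h1
  have hbot : commutator T = ⊥ := by
    rw [← Subgroup.card_eq_one]
    have := (commutator T).card_mul_index
    rw [← h1, h] at this
    omega
  rw [commutator_def, Subgroup.commutator_eq_bot_iff_le_centralizer] at hbot
  exact hT ⟨⟨fun a b => mem_centralizer_iff.1 (hbot (mem_top b)) a (mem_top a)⟩⟩

/-- Characters of two quotients with complementary kernels multiply to an irreducible character. -/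
theorem exists_product_char {G : Type u} [Group G] [Finite G] {R C : Subgroup G} [R.Normal] [C.Normal]
    (hinf : R ⊓ C = ⊥) (hcard : Nat.card R * Nat.card C = Nat.card G)
    (θ : IrrCharacter (G ⧸ R)) (ψ : IrrCharacter (G ⧸ C)) :
    ∃ χ : IrrCharacter G, charDegree (χ : G → ℂ) =
      charDegree (θ : G ⧸ R → ℂ) * charDegree (ψ : G ⧸ C → ℂ) := by
  classical
  haveI := Fintype.ofFinite G
  haveI := Fintype.ofFinite (G ⧸ R)
  haveI := Fintype.ofFinite (G ⧸ C)
  set f : G → ℂ := (inflate R θ : G → ℂ) * (inflate C ψ : G → ℂ) with hf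
  have hchar : IsCharacter G f := isCharacter_mul (isCharacter_coe _) (isCharacter_coe _)
  let F : G →* (G ⧸ R) × (G ⧸ C) := (QuotientGroup.mk' R).prod (QuotientGroup.mk' C)
  have hFi : Function.Injective F := by
    rw [← MonoidHom.ker_eq_bot_iff, eq_bot_iff]
    intro g hg
    have h1 := congrArg Prod.fst (show F g = 1 from hg)
    have h2 := congrArg Prod.snd (show F g = 1 from hg)
    rw [← hinf]
    exact ⟨(QuotientGroup.eq_one_iff g).1 h1, (QuotientGroup.eq_one_iff g).1 h2⟩
  have hcards : Nat.card G = Nat.card (G ⧸ R) * Nat.card (G ⧸ C) := by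
    have h1 := R.card_mul_index
    have h2 := C.card_mul_index
    refine Nat.eq_of_mul_eq_mul_left (Nat.card_pos (α := G)) ?_
    calc Nat.card G * Nat.card G = Nat.card R * R.index * (Nat.card C * C.index) := by rw [h1, h2]
      _ = Nat.card R * Nat.card C * (R.index * C.index) := by ring
      _ = _ := by rw [hcard]; rfl
  have hFb : Function.Bijective F := hFi.bijective_of_nat_card_le (by rw [Nat.card_prod, hcards])
  have hone : classInner f f = 1 := by
    have hθ := classInner_self θ
    have hψ := classInner_self ψ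
    unfold classInner at hθ hψ ⊢
    have hsum : ∑ g : G, f g * starRingEnd ℂ (f g) =
        (∑ a : G ⧸ R, (θ : G ⧸ R → ℂ) a * starRingEnd ℂ ((θ : G ⧸ R → ℂ) a)) *
          ∑ b : G ⧸ C, (ψ : G ⧸ C → ℂ) b * starRingEnd ℂ ((ψ : G ⧸ C → ℂ) b) := by
      rw [Finset.sum_mul_sum, ← Fintype.sum_prod_type']
      refine Fintype.sum_equiv (Equiv.ofBijective F hFb) _ _ fun g => ?_
      simp only [hf, Pi.mul_apply, inflate_apply, map_mul, Equiv.ofBijective_apply, F, MonoidHom.prod_apply,
        QuotientGroup.mk'_apply]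
      ring
    rw [hsum, hcards, Nat.cast_mul, mul_inv, mul_mul_mul_comm, hθ, hψ, one_mul]
  refine ⟨⟨f, isIrrCharacter_of_classInner_self hchar hone⟩, charDegree_eq_of_map_one ?_⟩
  show f 1 = _
  rw [hf, Pi.mul_apply, ← coe_charDegree, ← coe_charDegree, charDegree_inflate, charDegree_inflate, Nat.cast_mul]

/-- The composition factor `A₅` in a group of order 360: some degree is a multiple of 6, or none is a
multiple of 10. -/
theorem false_360 {G : Type u} [Group G] [Finite G] (hG : Nat.card G = 360)
    (h10 : ∃ χ : IrrCharacter G, 10 ∣ charDegree (χ : G → ℂ))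
    (h6 : ∀ χ : IrrCharacter G, ¬ 6 ∣ charDegree (χ : G → ℂ))
    {R : Subgroup G} [R.Normal] {M : Subgroup (G ⧸ R)} [M.Normal] [IsSimpleGroup M]
    (hC : centralizer (M : Set (G ⧸ R)) = ⊥) (hM : Nat.card M = 60) : False := by
  classical
  have hle := card_le_120 hM hC
  have hd60 : 60 ∣ Nat.card (G ⧸ R) := hM ▸ Subgroup.card_subgroup_dvd_card M
  have hqpos : 0 < Nat.card (G ⧸ R) := Nat.card_pos
  have hidx := R.card_mul_index
  rw [hG, ← show Nat.card (G ⧸ R) = R.index from rfl] at hidx
  rcases (by omega : Nat.card (G ⧸ R) = 120 ∨ Nat.card (G ⧸ R) = 60) with hq | hq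
  · obtain ⟨χ, hχ⟩ := exists_degree_six hM hC hq
    exact h6 (inflate R χ) (by rw [charDegree_inflate, hχ])
  have hR : Nat.card R = 6 := by rw [hq] at hidx; omega
  have hMtop : M = ⊤ := Subgroup.eq_top_of_card_eq M (hM.trans hq.symm)
  haveI : IsSimpleGroup (G ⧸ R) := by
    refine CfsgLib.MinNormal.isSimpleGroup_congr ((MulEquiv.subgroupCongr hMtop).trans Subgroup.topEquiv) ?_
    infer_instance
  -- an element of order five centralises `R`
  haveI : Fact (Nat.Prime 5) := ⟨by norm_num⟩
  obtain ⟨y, hy⟩ := exists_prime_orderOf_dvd_card' (G := G) 5 (by rw [hG]; norm_num)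
  set C := centralizer (R : Set G)
  have hyC : y ∈ C := by
    set H := zpowers y ⊔ R
    have hyH : zpowers y ≤ H := le_sup_left
    have hRH : R ≤ H := le_sup_right
    have hP : Nat.card (zpowers y) = 5 := by rw [Nat.card_zpowers, hy]
    have hinf : zpowers y ⊓ R = ⊥ := Subgroup.inf_eq_bot_of_coprime (by rw [hP, hR]; norm_num)
    have hH30 : Nat.card H = 30 := by
      have hc : Nat.card ↥((zpowers y : Set G) * (R : Set G)) = 30 := by
        refine (Nat.card_congr (Equiv.ofBijective
          (fun a : zpowers y × R => (⟨(a.1 : G) * a.2, Set.mul_mem_mul a.1.2 a.2.2⟩ :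
            ↥((zpowers y : Set G) * (R : Set G))))
          ⟨fun a b hab => Subgroup.mul_injective_of_disjoint (disjoint_iff.2 hinf) (congrArg Subtype.val hab),
           fun x => ?_⟩)).symm.trans ((Nat.card_prod _ _).trans (by rw [hP, hR]))
        obtain ⟨a, ha, b, hb, hab⟩ := x.2
        exact ⟨(⟨a, ha⟩, ⟨b, hb⟩), Subtype.ext hab⟩
      rw [← Subgroup.mul_normal] at hc
      exact hc
    let S : Sylow 5 H := Sylow.ofCard ((zpowers y).subgroupOf H) (by
      rw [Nat.card_congr (subgroupOfEquivOfLe hyH).toEquiv, hP, hH30,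
        show (30 : ℕ) = 5 ^ 1 * 6 by norm_num, Nat.factorization_mul (by norm_num) (by norm_num),
        Finsupp.add_apply, Nat.Prime.factorization_pow (by norm_num), Finsupp.single_eq_same,
        Nat.factorization_eq_zero_of_not_dvd (by norm_num)]
      norm_num)
    have hS : ((zpowers y).subgroupOf H).Normal :=
      CfsgLib.SylowToolkit.sylow_normal_of_card_eq_one (CfsgLib.Dickson.card_sylow_five_of_card_thirty hH30) S
    have hRn : (R.subgroupOf H).Normal := inferInstance
    have hd : Disjoint ((zpowers y).subgroupOf H) (R.subgroupOf H) := by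
      rw [disjoint_iff, eq_bot_iff]
      rintro x ⟨h1, h2⟩
      have : (x : G) ∈ zpowers y ⊓ R := ⟨h1, h2⟩
      rw [hinf] at this
      exact Subgroup.mem_bot.2 (Subtype.ext (Subgroup.mem_bot.1 this))
    rw [mem_centralizer_iff]
    intro x hx
    exact (congrArg Subtype.val (Subgroup.commute_of_normal_of_disjoint _ _ hS hRn hd
      ⟨y, hyH (mem_zpowers y)⟩ ⟨x, hRH hx⟩ (mem_zpowers y) hx).eq).symm
  haveI : C.Normal := inferInstance
  have hsup : C ⊔ R = ⊤ := by
    have hmap : C.map (QuotientGroup.mk' R) = ⊤ := by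
      haveI : (C.map (QuotientGroup.mk' R)).Normal :=
        Subgroup.Normal.map inferInstance _ (QuotientGroup.mk'_surjective R)
      refine (inferInstance : (C.map (QuotientGroup.mk' R)).Normal).eq_bot_or_eq_top.resolve_left fun h => ?_
      rw [Subgroup.map_eq_bot_iff, QuotientGroup.ker_mk'] at h
      have h5 := Subgroup.orderOf_dvd_natCard R (h hyC)
      rw [hy, hR] at h5
      norm_num at h5
    have := congrArg (Subgroup.comap (QuotientGroup.mk' R)) hmap
    rwa [comap_map_eq, QuotientGroup.ker_mk', comap_top] at this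
  by_cases hcomm : IsMulCommutative R
  · have hRZ : R ≤ center G := by
      intro x hx
      rw [mem_center_iff]
      intro g
      obtain ⟨c, hc, r, hr, rfl⟩ : ∃ c ∈ C, ∃ r ∈ R, c * r = g := by
        have : g ∈ (C : Set G) * (R : Set G) := by rw [← Subgroup.mul_normal, hsup]; trivial
        obtain ⟨c, hc, r, hr, h⟩ := this
        exact ⟨c, hc, r, hr, h⟩
      have h1 : x * c = c * x := mem_centralizer_iff.1 hc x hx
      have h2 : r * x = x * r := congrArg Subtype.val (hcomm.is_comm.comm ⟨r, hr⟩ ⟨x, hx⟩)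
      calc c * r * x = c * (x * r) := by rw [mul_assoc, h2]
        _ = x * (c * r) := by rw [← mul_assoc, ← h1, mul_assoc]
    obtain ⟨χ, hχ⟩ := h10
    have h1 := charDegree_sq_le_index_center χ
    have h2 : (center G).index ≤ 60 := by
      rw [← hq]
      exact Nat.le_of_dvd hqpos (Subgroup.index_dvd_of_le hRZ)
    have h3 := Nat.le_of_dvd (charDegree_pos χ) hχ
    nlinarith
  · have hinf : R ⊓ C = ⊥ := by
      have hsub : C.subgroupOf R = center R := by
        ext x
        rw [mem_subgroupOf, mem_centralizer_iff, mem_center_iff]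
        exact ⟨fun h z => Subtype.ext (h z z.2), fun h z hz => congrArg Subtype.val (h ⟨z, hz⟩)⟩
      rw [inf_comm, ← disjoint_iff, ← subgroupOf_eq_bot, hsub]
      haveI : Fintype R := Fintype.ofFinite R
      by_contra hne
      have hd := Subgroup.card_subgroup_dvd_card (center R)
      have h1 : 1 < Nat.card (center R) := (Subgroup.one_lt_card_iff_ne_bot _).2 hne
      have hi := (center R).card_mul_index
      rw [hR] at hd hi
      have hcyc : IsCyclic (R ⧸ center R) := by
        have hle6 : (center R).index ≤ 3 := by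
          by_contra hgt
          have : Nat.card (center R) * 4 ≤ 6 := hi ▸ Nat.mul_le_mul_left _ (not_le.1 hgt)
          omega
        have hpos : 0 < (center R).index := Nat.pos_of_ne_zero Subgroup.index_ne_zero_of_finite
        rcases (by omega : (center R).index = 1 ∨ (center R).index = 2 ∨ (center R).index = 3) with e | e | e
        · haveI : Subsingleton (R ⧸ center R) :=
            (Nat.card_eq_one_iff_unique.1 (show Nat.card (R ⧸ center R) = 1 from e)).1
          exact isCyclic_of_subsingleton
        · haveI : Fact (Nat.Prime 2) := ⟨Nat.prime_two⟩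
          exact isCyclic_of_prime_card (show Nat.card (R ⧸ center R) = 2 from e)
        · haveI : Fact (Nat.Prime 3) := ⟨Nat.prime_three⟩
          exact isCyclic_of_prime_card (show Nat.card (R ⧸ center R) = 3 from e)
      exact hcomm ⟨⟨fun a b => commutative_of_cyclic_center_quotient (QuotientGroup.mk' (center R))
        (by rw [QuotientGroup.ker_mk']) a b⟩⟩
    have hcC : Nat.card C = 60 := by
      have e : Nat.card C = Nat.card (G ⧸ R) := by
        refine Nat.card_eq_of_bijective (fun c : C => (QuotientGroup.mk (c : G) : G ⧸ R)) ⟨fun a b h => ?_, fun q => ?_⟩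
        · rw [QuotientGroup.eq] at h
          have : (a : G)⁻¹ * b ∈ R ⊓ C := Subgroup.mem_inf.2 ⟨h, C.mul_mem (C.inv_mem a.2) b.2⟩
          rw [hinf] at this
          exact Subtype.ext (inv_mul_eq_one.1 (Subgroup.mem_bot.1 this))
        · obtain ⟨g, rfl⟩ := QuotientGroup.mk_surjective q
          have : g ∈ (C : Set G) * (R : Set G) := by rw [← Subgroup.mul_normal, hsup]; trivial
          obtain ⟨c, hc, r, hr, rfl⟩ := this
          exact ⟨⟨c, hc⟩, QuotientGroup.eq.2 (by simpa using hr)⟩
      rw [e, hq]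
    have hT : Nat.card (G ⧸ C) = 6 := by
      have := C.card_mul_index
      rw [hcC, hG] at this
      show C.index = 6
      omega
    have hTc : ¬ IsMulCommutative (G ⧸ C) := fun h => hcomm ⟨⟨fun a b => Subtype.ext <| by
      have hab := h.is_comm.comm (QuotientGroup.mk (a : G) : G ⧸ C) (QuotientGroup.mk (b : G))
      rw [← QuotientGroup.mk_mul, ← QuotientGroup.mk_mul, QuotientGroup.eq] at hab
      have hmem : ((a : G) * b)⁻¹ * ((b : G) * a) ∈ R ⊓ C :=
        Subgroup.mem_inf.2 ⟨R.mul_mem (R.inv_mem (R.mul_mem a.2 b.2)) (R.mul_mem b.2 a.2), hab⟩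
      rw [hinf] at hmem
      exact inv_mul_eq_one.1 (Subgroup.mem_bot.1 hmem)⟩⟩
    obtain ⟨θ, hθ⟩ := (sixty_degrees hq).2
    obtain ⟨ψ, hψ⟩ := exists_degree_two hT hTc
    obtain ⟨χ, hχ⟩ := exists_product_char hinf (by rw [hR, hcC, hG]) θ ψ
    exact h6 χ (by rw [hχ, hθ, hψ])

end CfsgLib.DegreeOrder
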